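import Mathlib

set_option autoImplicit false

namespace Cfsg.Agent.Lib.Helper44.SzDeg

/-- the substitution `x = 2 ^ m = 2 y`, `q = 2 x ^ 2` -/
theorem arith_subst (m : ℕ) (hm : 1 ≤ m) (q : ℤ) (hq : q = 2 ^ (2 * m + 1)) :
    ∃ y : ℤ, 1 ≤ y ∧ (2 : ℤ) ^ m = 2 * y ∧ q = 2 * ((2 : ℤ) ^ m) ^ 2 := by
  obtain ⟨k, rfl⟩ := Nat.exists_eq_add_of_le hm
  refine ⟨2 ^ k, one_le_pow₀ (by norm_num), ?_, ?_⟩
  · rw [add_comm, pow_succ]; ring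
  · rw [hq]; ring

theorem arith_cancel {q n : ℤ} (hq : q - 1 ≠ 0)
    (h : (q - 1) * n ∣ q ^ 2 * (q ^ 2 + 1) * (q - 1)) : n ∣ q ^ 2 * (q ^ 2 + 1) := by
  have h1 : q ^ 2 * (q ^ 2 + 1) * (q - 1) = (q - 1) * (q ^ 2 * (q ^ 2 + 1)) := by ring
  rw [h1] at h
  exact (mul_dvd_mul_iff_left hq).1 h

/-- an odd number dividing `q ^ 2 * c`, `q = 2 x ^ 2`, divides `x ^ 4 * c`-free part -/
theorem arith_odd {n w x c : ℤ} (hn : n = 2 * w + 1) (h : n ∣ (2 * x ^ 2) ^ 2 * c)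
    (hx : ∃ k : ℕ, x = 2 ^ k) : n ∣ c := by
  obtain ⟨k, rfl⟩ := hx
  have h2 : IsCoprime n 2 := ⟨1, -w, by rw [hn]; ring⟩
  have h3 : IsCoprime n ((2 * ((2 : ℤ) ^ k) ^ 2) ^ 2) := by
    have : (2 * ((2 : ℤ) ^ k) ^ 2) ^ 2 = 2 ^ (2 * (2 * k + 1)) := by ring
    rw [this]
    exact h2.pow_right
  exact h3.dvd_of_dvd_mul_left h

theorem arith1 (m : ℕ) (hm : 1 ≤ m) (q : ℤ) (hq : q = 2 ^ (2 * m + 1)) :
    ¬ ((q - 1) * (q + 1) ∣ q ^ 2 * (q ^ 2 + 1) * (q - 1)) := by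
  obtain ⟨y, hy, hxy, hqx⟩ := arith_subst m hm q hq
  intro h
  have hq8 : 8 ≤ q := by rw [hqx, hxy]; nlinarith
  have h1 := arith_cancel (by omega) h
  have h2 : q ^ 2 * (q ^ 2 + 1) = (q + 1) * (q ^ 3 - q ^ 2 + 2 * q - 2) + 2 := by ring
  rw [h2] at h1
  have h3 : q + 1 ∣ 2 := (Int.dvd_add_right (Dvd.intro _ rfl)).1 h1
  have h4 := Int.le_of_dvd (by norm_num) h3
  omega

theorem arith2p (m : ℕ) (hm : 1 ≤ m) (q : ℤ) (hq : q = 2 ^ (2 * m + 1)) :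
    ¬ ((q - 1) * (q + 1 + 2 ^ m) ∣ q ^ 2 * (q ^ 2 + 1) * (q - 1)) := by
  obtain ⟨y, hy, hxy, hqx⟩ := arith_subst m hm q hq
  intro h
  have hq8 : 8 ≤ q := by rw [hqx, hxy]; nlinarith
  have h1 := arith_cancel (by omega) h
  set x : ℤ := 2 ^ m with hx
  have hx2 : 2 ≤ x := by omega
  rw [hqx] at h1
  have h2 : 2 * x ^ 2 + 1 + x ∣ (2 * x ^ 2) ^ 2 + 1 :=
    arith_odd (w := x ^ 2 + y) (by rw [hxy]; ring) h1 ⟨m, hx⟩
  have h3 : 2 * ((2 * x ^ 2) ^ 2 + 1)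
      = (2 * x ^ 2 + 1 + x) * (4 * x ^ 2 - 2 * x - 1) + (3 * x + 3) := by ring
  have h4 : 2 * x ^ 2 + 1 + x ∣ 3 * x + 3 := by
    have := Dvd.dvd.mul_left h2 2
    rw [h3] at this
    exact (Int.dvd_add_right (Dvd.intro _ rfl)).1 this
  have h5 := Int.le_of_dvd (by omega) h4
  nlinarith

theorem arith2m (m : ℕ) (hm : 1 ≤ m) (q : ℤ) (hq : q = 2 ^ (2 * m + 1)) :
    ¬ ((q - 1) * (q + 1 - 2 ^ m) ∣ q ^ 2 * (q ^ 2 + 1) * (q - 1)) := by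
  obtain ⟨y, hy, hxy, hqx⟩ := arith_subst m hm q hq
  intro h
  have hq8 : 8 ≤ q := by rw [hqx, hxy]; nlinarith
  have h1 := arith_cancel (by omega) h
  set x : ℤ := 2 ^ m with hx
  have hx2 : 2 ≤ x := by omega
  rw [hqx] at h1
  have h2 : 2 * x ^ 2 + 1 - x ∣ (2 * x ^ 2) ^ 2 + 1 :=
    arith_odd (w := x ^ 2 - y) (by rw [hxy]; ring) h1 ⟨m, hx⟩
  have h3 : (2 * x ^ 2 + 1 - x) * (4 * x ^ 2 + 2 * x - 1)
      = 2 * ((2 * x ^ 2) ^ 2 + 1) + (3 * x - 3) := by ring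
  have h4 : 2 * x ^ 2 + 1 - x ∣ 3 * x - 3 := by
    have h6 := Dvd.dvd.mul_left h2 2
    have h7 : 2 * x ^ 2 + 1 - x ∣ 2 * ((2 * x ^ 2) ^ 2 + 1) + (3 * x - 3) := by
      rw [← h3]; exact Dvd.intro _ rfl
    exact (Int.dvd_add_right h6).1 h7
  have h5 := Int.le_of_dvd (by omega) h4
  nlinarith

theorem arith3 (m : ℕ) (hm : 1 ≤ m) (q : ℤ) (hq : q = 2 ^ (2 * m + 1)) (s : ℤ) (h0 : 0 ≤ s)
    (hs : s ≤ 2 ^ (m + 1)) (h : 1 + (q - 1) * (2 ^ m * s) ∣ q ^ 2 * (q ^ 2 + 1) * (q - 1)) :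
    s = 0 := by
  obtain ⟨y, hy, hxy, hqx⟩ := arith_subst m hm q hq
  have hq8 : 8 ≤ q := by rw [hqx, hxy]; nlinarith
  set x : ℤ := 2 ^ m with hx
  have hx2 : 2 ≤ x := by omega
  by_contra hs0
  have hs1 : 1 ≤ s := by omega
  -- coprime to `q - 1`
  have hc1 : IsCoprime (1 + (q - 1) * (x * s)) (q - 1) := ⟨1, -(x * s), by ring⟩
  have h1 : 1 + (q - 1) * (x * s) ∣ q ^ 2 * (q ^ 2 + 1) := hc1.dvd_of_dvd_mul_right h
  have h2 : 1 + (q - 1) * (x * s) ∣ q ^ 2 + 1 := by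
    have h3 : 1 + (q - 1) * (x * s) ∣ (2 * x ^ 2) ^ 2 * (q ^ 2 + 1) := by rw [← hqx]; exact h1
    exact arith_odd (w := (q - 1) * (y * s)) (by rw [hxy]; ring) h3 ⟨m, hx⟩
  obtain ⟨k, hk⟩ := h2
  have hxs : x ≤ x * s := by nlinarith
  have hD2 : 2 * q - 1 ≤ 1 + (q - 1) * (x * s) := by
    have h4 : (q - 1) * 2 ≤ (q - 1) * (x * s) :=
      mul_le_mul_of_nonneg_left (by omega) (by omega)
    linarith
  have hkj : k = 2 + (q - 1) * (q + 1 - x * s * k) := by linear_combination (-1 : ℤ) * hk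
  have hpar : q ^ 2 = 2 * (2 * x ^ 4) := by rw [hqx]; ring
  generalize hD : 1 + (q - 1) * (x * s) = D at hk hD2
  generalize hj : q + 1 - x * s * k = j at hkj
  have hkpos : 0 < k := by
    by_contra hcon
    have h5 : D * k ≤ 0 := mul_nonpos_of_nonneg_of_nonpos (by omega) (by omega)
    nlinarith
  have hj1 : 1 ≤ j := by
    by_contra hcon
    have hj0 : j ≤ 0 := by omega
    rcases eq_or_lt_of_le hj0 with h6 | h6
    · rw [h6, mul_zero, add_zero] at hkj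
      rw [hkj, hpar] at hk
      omega
    · have h7 : (q - 1) * j ≤ (q - 1) * (-1) :=
        mul_le_mul_of_nonneg_left (by omega) (by omega)
      omega
  have hk2 : q + 1 ≤ k := by
    have h8 : (q - 1) * 1 ≤ (q - 1) * j := mul_le_mul_of_nonneg_left hj1 (by omega)
    omega
  have h9 : (2 * q - 1) * (q + 1) ≤ D * k := mul_le_mul hD2 hk2 (by omega) (by omega)
  nlinarith

end Cfsg.Agent.Lib.Helper44.SzDeg
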