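import Cfsg.Agent.Lib.Helper44.SzDeg.Defs
import Cfsg.Agent.Lib.Helper8.SzClassSq
import Cfsg.Agent.Lib.Helper8.SzMore
import Cfsg.Agent.Lib.Helper37.FrakLSz

/-! Ladder SZDEG, rung CONC (helper75): the configuration `Cfg` for the concrete Suzuki group. -/

set_option autoImplicit false

namespace Cfsg.Agent.Lib.Helper44.SzDeg

open Cfsg Cfsg.Agent.Lib.Helper8

section
variable {F : Type*} [Field F] [CharP F 2] [Fintype F] {m : ℕ}
  (hF : Fintype.card F = 2 ^ (2 * m + 1)) (hm : 1 ≤ m)

open Classical in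
/-- the sign character with kernel `WW F m`. -/
noncomputable def concPsi : AddChar F ℂ where
  toFun x := if x ∈ WW F m then 1 else -1
  map_zero_eq_one' := by simp [(WW F m).zero_mem]
  map_add_eq_mul' a b := by
    have h := AddSubgroup.add_mem_iff_of_index_two (index_WW (m := m) hF) (a := a) (b := b)
    by_cases ha : a ∈ WW F m <;> by_cases hb : b ∈ WW F m <;> simp [ha, hb, h]

theorem concPsi_pos {x : F} (h : x ∈ WW F m) : concPsi hF x = 1 := by
  classical
  exact if_pos h

theorem concPsi_neg {x : F} (h : x ∉ WW F m) : concPsi hF x = -1 := by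
  classical
  exact if_neg h

/-- the Borel subgroup. -/
abbrev concB (F : Type*) [Field F] [CharP F 2] [Fintype F] (m : ℕ) : Subgroup (Cfsg.Sz F m) :=
  MulAction.stabilizer (Cfsg.Sz F m) (Cfsg.suzukiPointInfinity F)

/-- the diagonal part of an element of the Borel subgroup -/
noncomputable def concD (x : concB F m) : Fˣ :=
  (nf_inf hF hm (g := x.1) x.2).choose_spec.choose_spec.choose

theorem concD_spec (x : concB F m) : ∃ a b, (x : Cfsg.Sz F m) = tG hF a b * dG hF (concD hF hm x) :=
  ⟨_, _, (nf_inf hF hm (g := x.1) x.2).choose_spec.choose_spec.choose_spec⟩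

theorem concD_eq (x : concB F m) {a b : F} {k : Fˣ} (h : (x : Cfsg.Sz F m) = tG hF a b * dG hF k) :
    concD hF hm x = k := by
  obtain ⟨a', b', h'⟩ := concD_spec hF hm x
  rw [h] at h'
  exact (td_unique hF h').2.2.symm

/-- the diagonal part as a homomorphism -/
noncomputable def concDelta : concB F m →* Fˣ :=
  MonoidHom.mk' (concD hF hm) (by
    intro x y
    obtain ⟨a, b, hx⟩ := concD_spec hF hm x
    obtain ⟨c, d, hy⟩ := concD_spec hF hm y
    refine concD_eq hF hm (x * y) (a := a + (concD hF hm x : F) * c)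
      (b := b + (concD hF hm x : F) * th m (concD hF hm x : F) * d +
        th m a * ((concD hF hm x : F) * c)) ?_
    rw [Subgroup.coe_mul, hx, hy, dG_mul, ← tG_mul]
    calc tG hF a b * dG hF (concD hF hm x) * (tG hF c d * dG hF (concD hF hm y))
        = tG hF a b * (dG hF (concD hF hm x) * tG hF c d) * dG hF (concD hF hm y) := by group
      _ = _ := by rw [dG_tG]; group)

end

theorem exists_cfg {F : Type*} [Field F] [CharP F 2] [Fintype F] {m : ℕ}
    (hF : Fintype.card F = 2 ^ (2 * m + 1)) (hm : 1 ≤ m) : Nonempty (Cfg F (Cfsg.Sz F m) m) := by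
  classical
  refine ⟨{
    t := tG hF
    σ := th m
    ψ := concPsi hF
    B := concB F m
    δ := concDelta hF hm
    hF := hF
    hm := hm
    hσ := th_th hF
    hmul := tG_mul hF
    hinj := fun a b c d h => tG_injective hF h
    hψ1 := concPsi_neg hF (one_not_mem_WW hF)
    hψσ := fun c => concPsi_pos hF (self_add_th_mem c)
    hconj0 := fun b hb => tG_zero_conj hF hb
    hconj1 := fun a b ha => tG_conj_one hF ha b
    hcard := card_Sz hF hm
    hcent := fun a b z h hz => cent_tG hF hm h hz
    hnc := ?_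
    hB := fun a b => tG_inf hF a b
    hδ := ?_
    hδs := ?_
    hfix := ?_
    hinv := ?_
    hperf := Sz_perfect hF hm }⟩
  · intro hc
    have hinv : (tG hF (1:F) 0)⁻¹ = tG hF 1 1 := by rw [tG_inv]; simp
    have hne : tG hF (1:F) 0 ≠ 1 := by
      intro h; rw [← tG_zero hF] at h; exact one_ne_zero (tG_injective hF h).1
    rw [← hinv] at hc
    have ho := (real_tG hF hm hne).1 hc
    have h2 : tG hF (1:F) 0 ^ 2 = 1 := by rw [← ho]; exact pow_orderOf_eq_one _
    rw [pow_two, tG_mul, ← tG_zero hF] at h2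
    have := (tG_injective hF h2).2
    simp at this
  · intro x
    constructor
    · intro h
      obtain ⟨a, b, hx⟩ := concD_spec hF hm x
      have h' : concD hF hm x = 1 := h
      rw [h', dG_one, mul_one] at hx
      exact ⟨a, b, hx⟩
    · rintro ⟨a, b, hx⟩
      exact concD_eq hF hm x (a := a) (b := b) (by rw [dG_one, mul_one]; exact hx)
  · intro k
    refine ⟨⟨dG hF k, dG_inf hF k⟩, ?_⟩
    exact concD_eq hF hm _ (a := 0) (b := 0) (by rw [tG_zero, one_mul])
  · intro a b x h hx
    have hx' : (x⁻¹ * tG hF a b * x) • suzukiPointInfinity F = suzukiPointInfinity F := hx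
    rw [mul_smul, mul_smul, inv_smul_eq_iff] at hx'
    exact tG_fix hF h (smul_mem_ovoid x (ptInf_mem m)) hx'
  · intro s hs hs1
    obtain ⟨x, b, hb, e⟩ := Cfsg.Agent.Lib.Helper37.sz_inv_conj hF hm hs1 hs
    have h1 : IsConj s (tG hF 0 b) := isConj_iff.2 ⟨x, e⟩
    exact (tG_zero_conj hF hb).trans h1.symm

end Cfsg.Agent.Lib.Helper44.SzDeg
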