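import Mathlib

set_option autoImplicit false

namespace Cfsg.Agent.Lib.Helper44.SzDeg

section core

variable {ι : Type*} [Fintype ι]

/-- consecutive integers have a nonnegative product, which is `≥ 2` unless one of them vanishes. -/
theorem mul_succ_ge (u : ℤ) (h0 : u ≠ 0) (h1 : u + 1 ≠ 0) : 2 ≤ u * (u + 1) := by
  rcases lt_or_gt_of_ne h0 with h | h
  · have h2 : u ≤ -2 := by omega
    nlinarith
  · nlinarith

theorem sq_le_one_of_le_two (u : ℤ) (h : u * u ≤ 2) : u = 0 ∨ u = 1 ∨ u = -1 := by
  have h1 : u ≤ 1 := by nlinarith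
  have h2 : -1 ≤ u := by nlinarith
  omega

theorem mul_eq_one_cases (u v : ℤ) (h : u * v = 1) : (u = 1 ∧ v = 1) ∨ (u = -1 ∧ v = -1) :=
  Int.mul_eq_one_iff_eq_one_or_neg_one.mp h

theorem core_aux (x q g : ℤ) (hx : 2 ≤ x) (hq : q = 2 * x ^ 2)
    (A1 : ¬ ((q - 1) * (q + 1) ∣ g)) (A2p : ¬ ((q - 1) * (q + 1 + x) ∣ g))
    (A2m : ¬ ((q - 1) * (q + 1 - x) ∣ g))
    (l a b c : ι → ℤ) (ha : ∀ i, a i = 0 ∨ a i = 1) (hb : ∀ i, 0 ≤ b i) (hc : ∀ i, 0 ≤ c i)
    (hN : ∀ i, l i ≠ 0 → (l i = 1 ∧ a i = 0 ∧ b i = 0 ∧ c i = 0) ∨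
      (l i = 1 ∧ a i = 1 ∧ b i = x ∧ c i = x) ∨ (l i = 2 ∧ a i = 1 ∧ b i = x ∧ c i = x))
    (hD : ∀ i, (l i + (q - 1) * (a i + x * (b i + c i))) ∣ g)
    (hD0 : ∀ i, 0 < l i + (q - 1) * (a i + x * (b i + c i)))
    (i0 : ι) (hi0 : l i0 = 1 ∧ a i0 = 0 ∧ b i0 = 0 ∧ c i0 = 0)
    (huniq : ∀ i, l i + (q - 1) * (a i + x * (b i + c i)) = 1 → i = i0)
    (sll : ∑ i, l i * l i = 2 * (q - 1)) (sla : ∑ i, l i * a i = q - 1) (saa : ∑ i, a i * a i = q)
    (sab : ∑ i, a i * b i = x * (q - 1)) (sac : ∑ i, a i * c i = x * (q - 1))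
    (sbb : 2 * ∑ i, b i * b i = 2 + q * (q - 1)) (scc : 2 * ∑ i, c i * c i = 2 + q * (q - 1))
    (sbc : 2 * ∑ i, b i * c i = q * (q - 1)) :
    (∀ i, l i + (q - 1) * (a i + x * (b i + c i)) = 1 ∨
      l i + (q - 1) * (a i + x * (b i + c i)) = q ^ 2 ∨
      l i + (q - 1) * (a i + x * (b i + c i)) = q ^ 2 + 1 ∨
      l i + (q - 1) * (a i + x * (b i + c i)) = x * (q - 1) ∨
      l i + (q - 1) * (a i + x * (b i + c i)) = (q - 1) * (q + 2 * x + 1) ∨
      l i + (q - 1) * (a i + x * (b i + c i)) = (q - 1) * (q - 2 * x + 1)) ∧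
    (∃ i, l i + (q - 1) * (a i + x * (b i + c i)) = q ^ 2) ∧
    (∃ i, l i + (q - 1) * (a i + x * (b i + c i)) = q ^ 2 + 1) ∧
    (∃ i, l i + (q - 1) * (a i + x * (b i + c i)) = x * (q - 1)) ∧
    (∃ i, l i + (q - 1) * (a i + x * (b i + c i)) = (q - 1) * (q + 2 * x + 1)) ∧
    (∃ i, l i + (q - 1) * (a i + x * (b i + c i)) = (q - 1) * (q - 2 * x + 1)) := by
  classical
  have hq8 : 8 ≤ q := by nlinarith
  -- the sum of (b - c)^2
  have sdiff : ∑ i, (b i - c i) * (b i - c i) = 2 := by
    have : ∀ i, (b i - c i) * (b i - c i) = b i * b i + c i * c i - 2 * (b i * c i) := fun i => by ring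
    rw [Finset.sum_congr rfl (fun i _ => this i), Finset.sum_sub_distrib, Finset.sum_add_distrib,
      ← Finset.mul_sum]
    linarith
  have hdiff : ∀ i, b i - c i = 0 ∨ b i - c i = 1 ∨ b i - c i = -1 := by
    intro i
    apply sq_le_one_of_le_two
    rw [← sdiff]
    exact Finset.single_le_sum (f := fun i => (b i - c i) * (b i - c i)) (fun j _ => mul_self_nonneg _)
      (Finset.mem_univ i)
  -- cuspidal part of a
  have hanc : ∀ i, 2 * (if l i ≠ 0 then a i else 0) =
      -(l i * l i) + 3 * (l i * a i) + (if i = i0 then 1 else 0) := by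
    intro i
    by_cases hl : l i = 0
    · have : i ≠ i0 := by
        rintro rfl
        rw [hi0.1] at hl
        exact one_ne_zero hl
      simp [hl, this]
    · rw [if_pos hl]
      rcases hN i hl with ⟨h1, h2, h3, h4⟩ | ⟨h1, h2, h3, h4⟩ | ⟨h1, h2, h3, h4⟩
      · have : i = i0 := huniq i (by rw [h1, h2, h3, h4]; ring)
        rw [if_pos this, h1, h2]; norm_num
      · have : i ≠ i0 := by
          rintro rfl
          rw [hi0.2.1] at h2
          exact zero_ne_one h2
        rw [if_neg this, h1, h2]; norm_num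
      · have : i ≠ i0 := by
          rintro rfl
          rw [hi0.2.1] at h2
          exact zero_ne_one h2
        rw [if_neg this, h1, h2]; norm_num
  have sanc : 2 * ∑ i, (if l i ≠ 0 then a i else 0) = q := by
    rw [Finset.mul_sum, Finset.sum_congr rfl (fun i _ => hanc i), Finset.sum_add_distrib,
      Finset.sum_add_distrib, Finset.sum_neg_distrib, ← Finset.mul_sum, sll, sla]
    simp
    ring
  have hsplit : ∀ i, (if l i = 0 then a i else 0) = a i * a i - (if l i ≠ 0 then a i else 0) := by
    intro i
    have haa : a i * a i = a i := by rcases ha i with h | h <;> rw [h] <;> norm_num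
    by_cases hl : l i = 0 <;> simp [hl, haa]
  have sacu : 2 * ∑ i, (if l i = 0 then a i else 0) = q := by
    rw [Finset.sum_congr rfl (fun i _ => hsplit i), Finset.sum_sub_distrib, saa]
    linarith
  -- the weight function
  set w : ι → ℤ := fun i => (b i - x * a i) * (b i - x * a i) + (c i - x * a i) * (c i - x * a i) -
    (b i - c i) * (b i - c i) - 2 * (if l i = 0 then a i else 0) with hw
  have sw : ∑ i, w i = 0 := by
    have : ∀ i, w i = b i * b i + c i * c i - 2 * x * (a i * b i) - 2 * x * (a i * c i) +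
        2 * x ^ 2 * (a i * a i) - (b i - c i) * (b i - c i) - 2 * (if l i = 0 then a i else 0) := by
      intro i
      simp only [hw]
      ring
    rw [Finset.sum_congr rfl (fun i _ => this i)]
    simp only [Finset.sum_sub_distrib, Finset.sum_add_distrib, ← Finset.mul_sum]
    rw [sab, sac, saa, sdiff, sacu]
    nlinarith
  have hwN : ∀ i, l i ≠ 0 → w i = 0 := by
    intro i hl
    simp only [hw, if_neg hl]
    rcases hN i hl with ⟨h1, h2, h3, h4⟩ | ⟨h1, h2, h3, h4⟩ | ⟨h1, h2, h3, h4⟩ <;>
      rw [h2, h3, h4] <;> ring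
  have hwC : ∀ i, l i = 0 → w i = 2 * ((b i - x * a i) * (c i - x * a i) - a i) := by
    intro i hl
    simp only [hw, if_pos hl]
    ring
  have hw0 : ∀ i, 0 ≤ w i := by
    intro i
    by_cases hl : l i = 0
    · rw [hwC i hl]
      rcases ha i with h | h
      · rw [h]
        have := mul_nonneg (hb i) (hc i)
        simp only [mul_zero, sub_zero]
        linarith
      · rw [h]
        have hDi := hD i
        rw [hl, h] at hDi
        rcases hdiff i with h1 | h1 | h1
        · have hbc : b i = c i := by linarith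
          have hne : c i - x ≠ 0 := by
            intro h0
            apply A1
            have : c i = x := by linarith
            rw [hbc, this] at hDi
            have e : 0 + (q - 1) * (1 + x * (x + x)) = (q - 1) * (q + 1) := by rw [hq]; ring
            rwa [e] at hDi
          have : 0 < (c i - x) * (c i - x) := mul_self_pos.mpr hne
          rw [hbc]
          simp only [mul_one]
          linarith
        · have hbc : b i = c i + 1 := by linarith
          have h2 : 2 ≤ (c i - x) * (c i - x + 1) := by
            apply mul_succ_ge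
            · intro h0
              apply A2p
              have : c i = x := by linarith
              rw [hbc, this] at hDi
              have e : 0 + (q - 1) * (1 + x * (x + 1 + x)) = (q - 1) * (q + 1 + x) := by rw [hq]; ring
              rwa [e] at hDi
            · intro h0
              apply A2m
              have : c i = x - 1 := by linarith
              rw [hbc, this] at hDi
              have e : 0 + (q - 1) * (1 + x * (x - 1 + 1 + (x - 1))) = (q - 1) * (q + 1 - x) := by
                rw [hq]; ring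
              rwa [e] at hDi
          rw [hbc]
          simp only [mul_one]
          nlinarith
        · have hbc : c i = b i + 1 := by linarith
          have h2 : 2 ≤ (b i - x) * (b i - x + 1) := by
            apply mul_succ_ge
            · intro h0
              apply A2p
              have : b i = x := by linarith
              rw [hbc, this] at hDi
              have e : 0 + (q - 1) * (1 + x * (x + (x + 1))) = (q - 1) * (q + 1 + x) := by rw [hq]; ring
              rwa [e] at hDi
            · intro h0
              apply A2m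
              have : b i = x - 1 := by linarith
              rw [hbc, this] at hDi
              have e : 0 + (q - 1) * (1 + x * (x - 1 + (x - 1 + 1))) = (q - 1) * (q + 1 - x) := by
                rw [hq]; ring
              rwa [e] at hDi
          rw [hbc]
          simp only [mul_one]
          nlinarith
    · rw [hwN i hl]
  have hwz : ∀ i, w i = 0 := by
    intro i
    exact (Finset.sum_eq_zero_iff_of_nonneg (fun j _ => hw0 j)).mp sw i (Finset.mem_univ i)
  -- classification of the cuspidal ones
  have hcusp : ∀ i, l i = 0 → (a i = 0 ∧ ((b i = 1 ∧ c i = 0) ∨ (b i = 0 ∧ c i = 1))) ∨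
      (a i = 1 ∧ b i = x + 1 ∧ c i = x + 1) ∨ (a i = 1 ∧ b i = x - 1 ∧ c i = x - 1) := by
    intro i hl
    have h1 := hwz i
    rw [hwC i hl] at h1
    have h2 : (b i - x * a i) * (c i - x * a i) = a i := by linarith
    rcases ha i with h | h
    · left
      refine ⟨h, ?_⟩
      rw [h] at h2
      simp only [mul_zero, sub_zero] at h2
      have hpos := hD0 i
      rw [hl, h] at hpos
      have hbc : 0 < b i + c i := by
        by_contra hcon
        have : b i + c i = 0 := le_antisymm (not_lt.mp hcon) (add_nonneg (hb i) (hc i))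
        rw [this] at hpos
        simp at hpos
      rcases mul_eq_zero.mp h2 with h3 | h3
      · right
        refine ⟨h3, ?_⟩
        rcases hdiff i with h4 | h4 | h4 <;> have := hc i <;> omega
      · left
        refine ⟨?_, h3⟩
        rcases hdiff i with h4 | h4 | h4 <;> have := hb i <;> omega
    · right
      rw [h] at h2
      simp only [mul_one] at h2
      rcases mul_eq_one_cases _ _ h2 with ⟨h3, h4⟩ | ⟨h3, h4⟩
      · left; exact ⟨h, by linarith, by linarith⟩
      · right; exact ⟨h, by linarith, by linarith⟩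
  refine ⟨?_, ?_, ?_, ?_, ?_, ?_⟩
  · intro i
    by_cases hl : l i = 0
    · rcases hcusp i hl with ⟨h1, ⟨h2, h3⟩ | ⟨h2, h3⟩⟩ | ⟨h1, h2, h3⟩ | ⟨h1, h2, h3⟩
      · right; right; right; left; rw [hl, h1, h2, h3]; ring
      · right; right; right; left; rw [hl, h1, h2, h3]; ring
      · right; right; right; right; left; rw [hl, h1, h2, h3, hq]; ring
      · right; right; right; right; right; rw [hl, h1, h2, h3, hq]; ring
    · rcases hN i hl with ⟨h1, h2, h3, h4⟩ | ⟨h1, h2, h3, h4⟩ | ⟨h1, h2, h3, h4⟩
      · left; rw [h1, h2, h3, h4]; ring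
      · right; left; rw [h1, h2, h3, h4, hq]; ring
      · right; right; left; rw [h1, h2, h3, h4, hq]; ring
  · -- type T1 exists
    by_contra hcon
    push Not at hcon
    have : ∀ i, l i * l i - 2 * (l i * a i) = if i = i0 then 1 else 0 := by
      intro i
      by_cases hl : l i = 0
      · have : i ≠ i0 := by
          rintro rfl
          rw [hi0.1] at hl
          exact one_ne_zero hl
        simp [hl, this]
      · rcases hN i hl with ⟨h1, h2, h3, h4⟩ | ⟨h1, h2, h3, h4⟩ | ⟨h1, h2, h3, h4⟩
        · have : i = i0 := huniq i (by rw [h1, h2, h3, h4]; ring)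
          rw [if_pos this, h1, h2]; norm_num
        · exfalso
          apply hcon i
          rw [h1, h2, h3, h4, hq]; ring
        · have : i ≠ i0 := by
            rintro rfl
            rw [hi0.2.1] at h2
            exact zero_ne_one h2
          rw [if_neg this, h1, h2]; norm_num
    have h2 := Finset.sum_congr (s₁ := Finset.univ) rfl (fun i _ => this i)
    rw [Finset.sum_sub_distrib, ← Finset.mul_sum, sll, sla] at h2
    simp at h2
  · -- type T2 exists
    by_contra hcon
    push Not at hcon
    have : ∀ i, l i * l i - l i * a i = if i = i0 then 1 else 0 := by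
      intro i
      by_cases hl : l i = 0
      · have : i ≠ i0 := by
          rintro rfl
          rw [hi0.1] at hl
          exact one_ne_zero hl
        simp [hl, this]
      · rcases hN i hl with ⟨h1, h2, h3, h4⟩ | ⟨h1, h2, h3, h4⟩ | ⟨h1, h2, h3, h4⟩
        · have : i = i0 := huniq i (by rw [h1, h2, h3, h4]; ring)
          rw [if_pos this, h1, h2]; norm_num
        · have : i ≠ i0 := by
            rintro rfl
            rw [hi0.2.1] at h2
            exact zero_ne_one h2
          rw [if_neg this, h1, h2]; norm_num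
        · exfalso
          apply hcon i
          rw [h1, h2, h3, h4, hq]; ring
    have h2 := Finset.sum_congr (s₁ := Finset.univ) rfl (fun i _ => this i)
    rw [Finset.sum_sub_distrib, sll, sla] at h2
    simp at h2
    omega
  · -- b ≠ c somewhere
    by_contra hcon
    push Not at hcon
    have : ∀ i, (b i - c i) * (b i - c i) = 0 := by
      intro i
      by_cases hl : l i = 0
      · rcases hcusp i hl with ⟨h1, ⟨h2, h3⟩ | ⟨h2, h3⟩⟩ | ⟨h1, h2, h3⟩ | ⟨h1, h2, h3⟩
        · exfalso; apply hcon i; rw [hl, h1, h2, h3]; ring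
        · exfalso; apply hcon i; rw [hl, h1, h2, h3]; ring
        · rw [h2, h3]; ring
        · rw [h2, h3]; ring
      · rcases hN i hl with ⟨h1, h2, h3, h4⟩ | ⟨h1, h2, h3, h4⟩ | ⟨h1, h2, h3, h4⟩ <;>
          rw [h3, h4] <;> ring
    rw [Finset.sum_congr rfl (fun i _ => this i)] at sdiff
    simp at sdiff
  · by_contra hcon
    push Not at hcon
    have : ∀ i, a i * b i - x * (a i * a i) = -(if l i = 0 then a i else 0) := by
      intro i
      by_cases hl : l i = 0
      · rw [if_pos hl]
        rcases hcusp i hl with ⟨h1, _⟩ | ⟨h1, h2, h3⟩ | ⟨h1, h2, h3⟩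
        · rw [h1]; ring
        · exfalso; apply hcon i; rw [hl, h1, h2, h3, hq]; ring
        · rw [h1, h2]; ring
      · rw [if_neg hl]
        rcases hN i hl with ⟨h1, h2, h3, h4⟩ | ⟨h1, h2, h3, h4⟩ | ⟨h1, h2, h3, h4⟩ <;>
          rw [h2, h3] <;> ring
    have h2 := Finset.sum_congr (s₁ := Finset.univ) rfl (fun i _ => this i)
    rw [Finset.sum_sub_distrib, ← Finset.mul_sum, sab, saa, Finset.sum_neg_distrib] at h2
    nlinarith
  · by_contra hcon
    push Not at hcon
    have : ∀ i, a i * b i - x * (a i * a i) = (if l i = 0 then a i else 0) := by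
      intro i
      by_cases hl : l i = 0
      · rw [if_pos hl]
        rcases hcusp i hl with ⟨h1, _⟩ | ⟨h1, h2, h3⟩ | ⟨h1, h2, h3⟩
        · rw [h1]; ring
        · rw [h1, h2]; ring
        · exfalso; apply hcon i; rw [hl, h1, h2, h3, hq]; ring
      · rw [if_neg hl]
        rcases hN i hl with ⟨h1, h2, h3, h4⟩ | ⟨h1, h2, h3, h4⟩ | ⟨h1, h2, h3, h4⟩ <;>
          rw [h2, h3] <;> ring
    have h2 := Finset.sum_congr (s₁ := Finset.univ) rfl (fun i _ => this i)
    rw [Finset.sum_sub_distrib, ← Finset.mul_sum, sab, saa] at h2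
    nlinarith

end core

end Cfsg.Agent.Lib.Helper44.SzDeg
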