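import Cfsg.Agent.Lib.Helper44.UMult

/-!
# Character degrees of the Suzuki groups: abstract configuration

`Cfg F G m` records the facts on `G = Sz(q)`, `q = 2^(2m+1)`, that the character-theoretic
argument uses.  For a class function `χ` the four numbers `lN, aN, bN, cN` are the multiplicities
in `χ|_Q` of the trivial character, of a nontrivial linear character, and of the two irreducible
characters of degree `2^m` over the central character `ψ`; they only depend on the values of `χ`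
at `1`, `t 0 1` (involution), `t 1 0` and `t 1 1 = (t 1 0)⁻¹` (elements of order four).
-/

set_option autoImplicit false

namespace Cfsg.Agent.Lib.Helper44.SzDeg

open Cfsg
open scoped ComplexConjugate

structure Cfg (F : Type*) [Field F] [Fintype F] (G : Type*) [Group G] (m : ℕ) where
  t : F → F → G
  σ : F →+* F
  ψ : AddChar F ℂ
  B : Subgroup G
  δ : B →* Fˣ
  hF : Fintype.card F = 2 ^ (2 * m + 1)
  hm : 1 ≤ m
  hσ : ∀ x, σ (σ x) = x ^ 2
  hmul : ∀ a b c d, t a b * t c d = t (a + c) (b + d + σ a * c)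
  hinj : ∀ a b c d, t a b = t c d → a = c ∧ b = d
  hψ1 : ψ 1 = -1
  hψσ : ∀ c, ψ (c + σ c) = 1
  hconj0 : ∀ b, b ≠ 0 → IsConj (t 0 1) (t 0 b)
  hconj1 : ∀ a b, a ≠ 0 → IsConj (t a b) (t 1 (b / (a * σ a)))
  hcard : Nat.card G =
    (2 ^ (2 * m + 1)) ^ 2 * ((2 ^ (2 * m + 1)) ^ 2 + 1) * (2 ^ (2 * m + 1) - 1)
  hcent : ∀ a b z, ¬ (a = 0 ∧ b = 0) → z * t a b = t a b * z → ∃ c d, z = t c d
  hnc : ¬ IsConj (t 1 0) (t 1 1)
  hB : ∀ a b, t a b ∈ B
  hδ : ∀ x : B, δ x = 1 ↔ ∃ a b, (x : G) = t a b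
  hδs : Function.Surjective δ
  hfix : ∀ a b x, ¬ (a = 0 ∧ b = 0) → x⁻¹ * t a b * x ∈ B → x ∈ B
  hinv : ∀ s : G, s * s = 1 → s ≠ 1 → IsConj (t 0 1) s
  hperf : commutator G = ⊤

variable {F : Type*} [Field F] [Fintype F] {G : Type*} [Group G] {m : ℕ}

/-- `q = 2^(2m+1)` as a complex number. -/
noncomputable def qC (m : ℕ) : ℂ := 2 ^ (2 * m + 1)

/-- multiplicity of the trivial character of `Q`. -/
noncomputable def lN (C : Cfg F G m) (χ : G → ℂ) : ℂ :=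
  (χ 1 + (qC m - 1) * χ (C.t 0 1) + (qC m - 1) * (qC m / 2) * (χ (C.t 1 0) + χ (C.t 1 1))) / qC m ^ 2

/-- multiplicity of a nontrivial linear character of `Q`. -/
noncomputable def aN (C : Cfg F G m) (χ : G → ℂ) : ℂ :=
  (χ 1 + (qC m - 1) * χ (C.t 0 1) - (qC m / 2) * (χ (C.t 1 0) + χ (C.t 1 1))) / qC m ^ 2

/-- multiplicity of the first character of degree `2^m` of `Q`. -/
noncomputable def bN (C : Cfg F G m) (χ : G → ℂ) : ℂ :=
  (χ 1 - χ (C.t 0 1) - Complex.I * (qC m / 2) * (χ (C.t 1 0) - χ (C.t 1 1))) / (2 * qC m * 2 ^ m)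

/-- multiplicity of the second character of degree `2^m` of `Q`. -/
noncomputable def cN (C : Cfg F G m) (χ : G → ℂ) : ℂ :=
  (χ 1 - χ (C.t 0 1) + Complex.I * (qC m / 2) * (χ (C.t 1 0) - χ (C.t 1 1))) / (2 * qC m * 2 ^ m)

theorem qC_ne_zero (m : ℕ) : qC m ≠ 0 := pow_ne_zero _ two_ne_zero

theorem qC_eq (m : ℕ) : qC m = 2 * (2 ^ m) ^ 2 := by
  unfold qC; rw [pow_succ, pow_mul, mul_comm, ← pow_mul, ← pow_mul, mul_comm m 2]

/-- the degree formula. -/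
theorem degree_eq (C : Cfg F G m) (χ : G → ℂ) :
    χ 1 = lN C χ + (qC m - 1) * (aN C χ + 2 ^ m * (bN C χ + cN C χ)) := by
  have h := qC_ne_zero m
  have h2 : (2 : ℂ) ^ m ≠ 0 := pow_ne_zero _ two_ne_zero
  unfold lN aN bN cN
  field_simp
  ring

theorem lN_add (C : Cfg F G m) (χ₁ χ₂ : G → ℂ) : lN C (χ₁ + χ₂) = lN C χ₁ + lN C χ₂ := by
  unfold lN; simp only [Pi.add_apply]; ring

theorem aN_add (C : Cfg F G m) (χ₁ χ₂ : G → ℂ) : aN C (χ₁ + χ₂) = aN C χ₁ + aN C χ₂ := by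
  unfold aN; simp only [Pi.add_apply]; ring

theorem bN_add (C : Cfg F G m) (χ₁ χ₂ : G → ℂ) : bN C (χ₁ + χ₂) = bN C χ₁ + bN C χ₂ := by
  unfold bN; simp only [Pi.add_apply]; ring

theorem cN_add (C : Cfg F G m) (χ₁ χ₂ : G → ℂ) : cN C (χ₁ + χ₂) = cN C χ₁ + cN C χ₂ := by
  unfold cN; simp only [Pi.add_apply]; ring

end Cfsg.Agent.Lib.Helper44.SzDeg
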