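import Cfsg.Agent.Lib.Helper44.SzDeg.GRAM0

set_option autoImplicit false

namespace Cfsg.Agent.Lib.Helper44.SzDeg

open Cfsg
open scoped ComplexConjugate

variable {F : Type*} [Field F] [Fintype F] [CharP F 2] {G : Type*} [Group G] [Finite G] {m : ℕ}

/-- the general Gram sum -/
theorem gram_gen (C : Cfg F G m) (u v : Fin 4 → ℂ) :
    ∑ χ : IrrCharacter G, (∑ i, u i * (χ : G → ℂ) (pt C i)) *
        conj (∑ j, v j * (χ : G → ℂ) (pt C j)) = ∑ i, u i * conj (v i) * wt m i := by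
  have h1 : ∀ χ : IrrCharacter G, (∑ i, u i * (χ : G → ℂ) (pt C i)) *
        conj (∑ j, v j * (χ : G → ℂ) (pt C j))
      = ∑ i, ∑ j, u i * conj (v j) *
          ((χ : G → ℂ) (pt C i) * conj ((χ : G → ℂ) (pt C j))) := by
    intro χ
    rw [map_sum, Finset.sum_mul_sum]
    refine Finset.sum_congr rfl (fun i _ => Finset.sum_congr rfl (fun j _ => ?_))
    rw [map_mul]
    ring
  simp_rw [h1]
  rw [Finset.sum_comm]
  refine Finset.sum_congr rfl (fun i _ => ?_)
  rw [Finset.sum_comm]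
  simp_rw [← Finset.mul_sum, gram_pt C]
  simp

/-- coefficient vectors -/
noncomputable def gramL (m : ℕ) : Fin 4 → ℂ :=
  ![1 / qC m ^ 2, (qC m - 1) / qC m ^ 2, (qC m - 1) * (qC m / 2) / qC m ^ 2,
    (qC m - 1) * (qC m / 2) / qC m ^ 2]

noncomputable def gramA (m : ℕ) : Fin 4 → ℂ :=
  ![1 / qC m ^ 2, (qC m - 1) / qC m ^ 2, - (qC m / 2) / qC m ^ 2, - (qC m / 2) / qC m ^ 2]

noncomputable def gramB (m : ℕ) : Fin 4 → ℂ :=
  ![1 / (2 * qC m * 2 ^ m), - 1 / (2 * qC m * 2 ^ m),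
    - (Complex.I * (qC m / 2)) / (2 * qC m * 2 ^ m), Complex.I * (qC m / 2) / (2 * qC m * 2 ^ m)]

noncomputable def gramC (m : ℕ) : Fin 4 → ℂ :=
  ![1 / (2 * qC m * 2 ^ m), - 1 / (2 * qC m * 2 ^ m),
    Complex.I * (qC m / 2) / (2 * qC m * 2 ^ m), - (Complex.I * (qC m / 2)) / (2 * qC m * 2 ^ m)]

omit [CharP F 2] [Finite G] in
theorem lN_eq_sum (C : Cfg F G m) (χ : G → ℂ) : lN C χ = ∑ i, gramL m i * χ (pt C i) := by
  simp only [Fin.sum_univ_four, gramL, pt, lN]
  simp only [Matrix.cons_val_zero, Matrix.cons_val_one, Matrix.cons_val]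
  ring

omit [CharP F 2] [Finite G] in
theorem aN_eq_sum (C : Cfg F G m) (χ : G → ℂ) : aN C χ = ∑ i, gramA m i * χ (pt C i) := by
  simp only [Fin.sum_univ_four, gramA, pt, aN]
  simp only [Matrix.cons_val_zero, Matrix.cons_val_one, Matrix.cons_val]
  ring

omit [CharP F 2] [Finite G] in
theorem bN_eq_sum (C : Cfg F G m) (χ : G → ℂ) : bN C χ = ∑ i, gramB m i * χ (pt C i) := by
  simp only [Fin.sum_univ_four, gramB, pt, bN]
  simp only [Matrix.cons_val_zero, Matrix.cons_val_one, Matrix.cons_val]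
  ring

omit [CharP F 2] [Finite G] in
theorem cN_eq_sum (C : Cfg F G m) (χ : G → ℂ) : cN C χ = ∑ i, gramC m i * χ (pt C i) := by
  simp only [Fin.sum_univ_four, gramC, pt, cN]
  simp only [Matrix.cons_val_zero, Matrix.cons_val_one, Matrix.cons_val]
  ring

theorem conj_qC (m : ℕ) : conj (qC m) = qC m := by
  unfold qC
  rw [map_pow]
  congr 1
  exact Complex.conj_ofNat 2

theorem gram_ll (C : Cfg F G m) :
    ∑ χ : IrrCharacter G, lN C χ * conj (lN C χ) = 2 * (qC m - 1) := by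
  simp_rw [lN_eq_sum]
  rw [gram_gen]
  have h := qC_ne_zero m
  simp only [Fin.sum_univ_four, gramL, wt]
  simp only [Matrix.cons_val_zero, Matrix.cons_val_one, Matrix.cons_val, map_div₀, map_mul,
    map_sub, map_pow, map_one, conj_qC, Complex.conj_ofNat]
  field_simp
  ring

theorem gram_la (C : Cfg F G m) :
    ∑ χ : IrrCharacter G, lN C χ * conj (aN C χ) = qC m - 1 := by
  simp_rw [lN_eq_sum, aN_eq_sum]
  rw [gram_gen]
  have h := qC_ne_zero m
  simp only [Fin.sum_univ_four, gramL, gramA, wt]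
  simp only [Matrix.cons_val_zero, Matrix.cons_val_one, Matrix.cons_val, map_div₀, map_mul,
    map_sub, map_pow, map_one, map_neg, conj_qC, Complex.conj_ofNat]
  field_simp
  ring

theorem gram_aa (C : Cfg F G m) :
    ∑ χ : IrrCharacter G, aN C χ * conj (aN C χ) = qC m := by
  simp_rw [aN_eq_sum]
  rw [gram_gen]
  have h := qC_ne_zero m
  simp only [Fin.sum_univ_four, gramA, wt]
  simp only [Matrix.cons_val_zero, Matrix.cons_val_one, Matrix.cons_val, map_div₀, map_mul,
    map_sub, map_pow, map_one, map_neg, conj_qC, Complex.conj_ofNat]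
  field_simp
  ring

theorem gram_ab (C : Cfg F G m) :
    ∑ χ : IrrCharacter G, aN C χ * conj (bN C χ) = 2 ^ m * (qC m - 1) := by
  simp_rw [aN_eq_sum, bN_eq_sum]
  rw [gram_gen]
  have h := qC_ne_zero m
  have h2 : (2 : ℂ) ^ m ≠ 0 := pow_ne_zero _ two_ne_zero
  simp only [Fin.sum_univ_four, gramA, gramB, wt]
  simp only [Matrix.cons_val_zero, Matrix.cons_val_one, Matrix.cons_val, map_div₀, map_mul,
    map_sub, map_pow, map_one, map_neg, conj_qC, Complex.conj_ofNat, Complex.conj_I]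
  have hq := qC_eq m
  generalize qC m = q at *
  generalize (2 : ℂ) ^ m = x at *
  subst hq
  field_simp
  ring

theorem gram_ac (C : Cfg F G m) :
    ∑ χ : IrrCharacter G, aN C χ * conj (cN C χ) = 2 ^ m * (qC m - 1) := by
  simp_rw [aN_eq_sum, cN_eq_sum]
  rw [gram_gen]
  have h := qC_ne_zero m
  have h2 : (2 : ℂ) ^ m ≠ 0 := pow_ne_zero _ two_ne_zero
  simp only [Fin.sum_univ_four, gramA, gramC, wt]
  simp only [Matrix.cons_val_zero, Matrix.cons_val_one, Matrix.cons_val, map_div₀, map_mul,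
    map_sub, map_pow, map_one, map_neg, conj_qC, Complex.conj_ofNat, Complex.conj_I]
  have hq := qC_eq m
  generalize qC m = q at *
  generalize (2 : ℂ) ^ m = x at *
  subst hq
  field_simp
  ring

theorem gram_bb (C : Cfg F G m) :
    ∑ χ : IrrCharacter G, bN C χ * conj (bN C χ) = 1 + qC m * (qC m - 1) / 2 := by
  simp_rw [bN_eq_sum]
  rw [gram_gen]
  have h := qC_ne_zero m
  have h2 : (2 : ℂ) ^ m ≠ 0 := pow_ne_zero _ two_ne_zero
  simp only [Fin.sum_univ_four, gramB, wt]
  simp only [Matrix.cons_val_zero, Matrix.cons_val_one, Matrix.cons_val, map_div₀, map_mul,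
    map_sub, map_pow, map_one, map_neg, conj_qC, Complex.conj_ofNat, Complex.conj_I]
  have hq := qC_eq m
  generalize qC m = q at *
  generalize (2 : ℂ) ^ m = x at *
  subst hq
  field_simp
  ring_nf
  simp only [Complex.I_sq]
  ring

theorem gram_cc (C : Cfg F G m) :
    ∑ χ : IrrCharacter G, cN C χ * conj (cN C χ) = 1 + qC m * (qC m - 1) / 2 := by
  simp_rw [cN_eq_sum]
  rw [gram_gen]
  have h := qC_ne_zero m
  have h2 : (2 : ℂ) ^ m ≠ 0 := pow_ne_zero _ two_ne_zero
  simp only [Fin.sum_univ_four, gramC, wt]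
  simp only [Matrix.cons_val_zero, Matrix.cons_val_one, Matrix.cons_val, map_div₀, map_mul,
    map_sub, map_pow, map_one, map_neg, conj_qC, Complex.conj_ofNat, Complex.conj_I]
  have hq := qC_eq m
  generalize qC m = q at *
  generalize (2 : ℂ) ^ m = x at *
  subst hq
  field_simp
  ring_nf
  simp only [Complex.I_sq]
  ring

theorem gram_bc (C : Cfg F G m) :
    ∑ χ : IrrCharacter G, bN C χ * conj (cN C χ) = qC m * (qC m - 1) / 2 := by
  simp_rw [bN_eq_sum, cN_eq_sum]
  rw [gram_gen]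
  have h := qC_ne_zero m
  have h2 : (2 : ℂ) ^ m ≠ 0 := pow_ne_zero _ two_ne_zero
  simp only [Fin.sum_univ_four, gramB, gramC, wt]
  simp only [Matrix.cons_val_zero, Matrix.cons_val_one, Matrix.cons_val, map_div₀, map_mul,
    map_sub, map_pow, map_one, map_neg, conj_qC, Complex.conj_ofNat, Complex.conj_I]
  have hq := qC_eq m
  generalize qC m = q at *
  generalize (2 : ℂ) ^ m = x at *
  subst hq
  field_simp
  ring_nf
  simp only [Complex.I_sq]
  ring

end Cfsg.Agent.Lib.Helper44.SzDeg
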