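import Cfsg.Agent.Lib.Helper44.SzDeg.INTLA
import Cfsg.Agent.Lib.Helper44.SzDeg.GRAM1
import Cfsg.Agent.Lib.Helper78.FrobSchur2
import Cfsg.Agent.Lib.Helper78.FrobSchur3

set_option autoImplicit false
set_option linter.unusedSectionVars false
set_option linter.deprecated false

namespace Cfsg.Agent.Lib.Helper44.SzDeg

open Cfsg
open scoped ComplexConjugate

variable {F : Type*} [Field F] [Fintype F] [CharP F 2] {G : Type*} [Group G] [Fintype G] {m : ℕ}

omit [Field F] [Fintype F] [CharP F 2] in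
theorem fs_theta_card (g : G) :
    Cfsg.Agent.Lib.Helper78.fsTheta g = (Nat.card {s : G // s * s = g} : ℂ) := by
  classical
  unfold Cfsg.Agent.Lib.Helper78.fsTheta
  rw [Finset.sum_boole, Nat.card_eq_fintype_card, Fintype.card_subtype]

omit [Field F] [Fintype F] [CharP F 2] in
theorem fs_expand (g : G) :
    Cfsg.Agent.Lib.Helper78.fsTheta g =
      ∑ χ : IrrCharacter G, Cfsg.Agent.Lib.Helper78.fsNu (χ : G → ℂ) * (χ : G → ℂ) g := by
  have h1 := Helper20.eq_sum_classInner_smul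
    (Cfsg.Agent.Lib.Helper78.fsTheta_isClassFunction (G := G))
  have h2 := congrFun h1 g
  rw [Finset.sum_apply] at h2
  rw [h2]
  apply Finset.sum_congr rfl
  intro χ _
  rw [Pi.smul_apply, smul_eq_mul, Cfsg.Agent.Lib.Helper78.classInner_fsTheta χ.2]

omit [CharP F 2] in
theorem fs_card_cent (C : Cfg F G m) :
    Nat.card (Subgroup.centralizer ({C.t 0 1} : Set G)) = (2 ^ (2 * m + 1)) ^ 2 := by
  have h1 : Nat.card (Subgroup.centralizer ({C.t 0 1} : Set G)) =
      Nat.card {z : G // z * C.t 0 1 = C.t 0 1 * z} := by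
    apply Nat.card_congr
    exact Equiv.subtypeEquivRight (fun z => Subgroup.mem_centralizer_singleton_iff)
  rw [h1, gram0_card C _ (fun _ => True) (fun z => gram0_cent1 C (C.t 0 1) z rfl)]
  have h2 : Nat.card {c : F // True} = Fintype.card F := by
    rw [← Nat.card_eq_fintype_card]
    exact Nat.card_congr (Equiv.subtypeUnivEquiv (fun _ => trivial))
  rw [h2, C.hF, sq]

theorem fs_sq (C : Cfg F G m) (c d : F) : C.t c d * C.t c d = C.t 0 (C.σ c * c) := by
  rw [C.hmul, CharTwo.add_self_eq_zero, CharTwo.add_self_eq_zero, zero_add]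

omit [CharP F 2] in
theorem fs_root_form (C : Cfg F G m) {a b : F} (hab : ¬ (a = 0 ∧ b = 0)) {s : G}
    (hs : s * s = C.t a b) : ∃ c d, s = C.t c d := by
  apply C.hcent a b s hab
  rw [← hs, mul_assoc]

/-- numbers of square roots of the four test elements. -/
theorem fsTheta_pt (C : Cfg F G m) :
    Cfsg.Agent.Lib.Helper78.fsTheta (1 : G) = 1 + (qC m ^ 2 + 1) * (qC m - 1) ∧
    Cfsg.Agent.Lib.Helper78.fsTheta (C.t 0 1) = qC m ∧
    Cfsg.Agent.Lib.Helper78.fsTheta (C.t 1 0) = 0 ∧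
    Cfsg.Agent.Lib.Helper78.fsTheta (C.t 1 1) = 0 := by
  classical
  have none : ∀ b, Cfsg.Agent.Lib.Helper78.fsTheta (C.t 1 b) = 0 := by
    intro b
    rw [fs_theta_card]
    have : IsEmpty {s : G // s * s = C.t 1 b} := by
      constructor
      rintro ⟨s, hs⟩
      obtain ⟨c, d, rfl⟩ := fs_root_form C (by simp) hs
      rw [fs_sq] at hs
      exact zero_ne_one (C.hinj _ _ _ _ hs).1
    rw [Nat.card_of_isEmpty]
    simp
  refine ⟨?_, ?_, none 0, none 1⟩
  · rw [fs_theta_card]
    have e1 : C.t 0 1 ≠ 1 := by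
      rw [← gram0_t00 C]
      intro h
      exact one_ne_zero (C.hinj _ _ _ _ h).2
    have hset : {s : G | s * s = 1} = insert 1 {s : G | IsConj (C.t 0 1) s} := by
      ext s
      simp only [Set.mem_setOf_eq, Set.mem_insert_iff]
      constructor
      · intro h
        by_cases h1 : s = 1
        · exact Or.inl h1
        · exact Or.inr (C.hinv s h h1)
      · rintro (rfl | h)
        · simp
        · have h1 := h.pow 2
          have h2 : C.t 0 1 ^ 2 = 1 := by
            rw [sq, fs_sq, ← gram0_t00 C]; simp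
          rw [h2] at h1
          rw [← sq]
          exact isConj_one_right.1 h1
    have h1 : Nat.card {s : G // s * s = 1} = Nat.card {s : G // IsConj (C.t 0 1) s} + 1 := by
      have h2 : Nat.card {s : G // s * s = 1} = Set.ncard {s : G | s * s = 1} := rfl
      have h3 : Nat.card {s : G // IsConj (C.t 0 1) s} = Set.ncard {s : G | IsConj (C.t 0 1) s} :=
        rfl
      rw [h2, h3, hset, Set.ncard_insert_of_notMem _ (Set.toFinite _)]
      intro h
      exact e1 (isConj_one_left.1 h)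
    rw [h1, Helper20.card_isConj_eq_index]
    have h4 := Subgroup.card_mul_index (Subgroup.centralizer ({C.t 0 1} : Set G))
    rw [fs_card_cent C, C.hcard, mul_assoc] at h4
    have h5 := Nat.eq_of_mul_eq_mul_left (by positivity) h4
    rw [h5]
    have h2 : 1 ≤ 2 ^ (2 * m + 1) := Nat.one_le_two_pow
    push_cast [Nat.cast_sub h2]
    unfold qC
    ring
  · rw [fs_theta_card, gram0_card C _ (fun c => c = 1)]
    · have : Nat.card {c : F // c = 1} = 1 := by
        simp
      rw [this, one_mul, gram0_q C]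
    · intro s
      constructor
      · intro hs
        obtain ⟨c, d, rfl⟩ := fs_root_form C (by simp) hs
        refine ⟨c, d, rfl, ?_⟩
        rw [fs_sq] at hs
        have h1 := (C.hinj _ _ _ _ hs).2
        have h2 : C.σ (C.σ c) * C.σ c = 1 := by rw [← map_mul, h1, map_one]
        rw [C.hσ] at h2
        have h3 : c ^ 2 = c := by
          calc c ^ 2 = c ^ 2 * (C.σ c * c) := by rw [h1, mul_one]
            _ = (c ^ 2 * C.σ c) * c := by ring
            _ = c := by rw [h2, one_mul]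
        have h4 : c * (c - 1) = 0 := by linear_combination h3
        rcases mul_eq_zero.1 h4 with h5 | h5
        · rw [h5] at h1
          simp at h1
        · linear_combination h5
      · rintro ⟨c, d, rfl, rfl⟩
        rw [fs_sq]
        simp

theorem sum_fsNu_aN (C : Cfg F G m) :
    ∑ χ : IrrCharacter G, Cfsg.Agent.Lib.Helper78.fsNu (χ : G → ℂ) * aN C χ = qC m := by
  obtain ⟨h1, h2, h3, h4⟩ := fsTheta_pt C
  rw [fs_expand] at h1 h2 h3 h4
  have hq := qC_ne_zero m
  have key : ∑ χ : IrrCharacter G, Cfsg.Agent.Lib.Helper78.fsNu (χ : G → ℂ) * aN C χ =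
      ((∑ χ : IrrCharacter G, Cfsg.Agent.Lib.Helper78.fsNu (χ : G → ℂ) * (χ : G → ℂ) 1) +
        (qC m - 1) *
          (∑ χ : IrrCharacter G, Cfsg.Agent.Lib.Helper78.fsNu (χ : G → ℂ) * (χ : G → ℂ) (C.t 0 1)) -
        (qC m / 2) *
          ((∑ χ : IrrCharacter G, Cfsg.Agent.Lib.Helper78.fsNu (χ : G → ℂ) * (χ : G → ℂ) (C.t 1 0)) +
          (∑ χ : IrrCharacter G, Cfsg.Agent.Lib.Helper78.fsNu (χ : G → ℂ) * (χ : G → ℂ) (C.t 1 1))))
        / qC m ^ 2 := by
    rw [Finset.mul_sum, ← Finset.sum_add_distrib, ← Finset.sum_add_distrib, Finset.mul_sum,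
      ← Finset.sum_sub_distrib, Finset.sum_div]
    apply Finset.sum_congr rfl
    intro χ _
    unfold aN
    ring
  rw [key, h1, h2, h3, h4]
  field_simp
  ring

/-- the Gelfand-Graev character is multiplicity free. -/
theorem aN_le_one (C : Cfg F G m) (χ : IrrCharacter G) : aN C χ = 0 ∨ aN C χ = 1 := by
  classical
  have hn : ∀ χ : IrrCharacter G, ∃ n : ℕ, aN C χ = n := fun χ =>
    aN_nat C (Helper82.isIrr_isChar χ.2)
  choose n hn using hn
  have h1 : ∑ χ : IrrCharacter G, ((n χ : ℤ)) ^ 2 = 2 ^ (2 * m + 1) := by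
    have h := gram_aa C
    have h2 : ∀ χ : IrrCharacter G, aN C χ * conj (aN C χ) = (((n χ : ℤ) ^ 2 : ℤ) : ℂ) := by
      intro χ
      rw [hn χ]
      simp [sq]
    simp only [h2] at h
    unfold qC at h
    exact_mod_cast h
  have h2 : ∑ χ : IrrCharacter G, Cfsg.Agent.Lib.Helper78.fsNuZ (χ : G → ℂ) * (n χ : ℤ) =
      2 ^ (2 * m + 1) := by
    have h := sum_fsNu_aN C
    have h3 : ∀ χ : IrrCharacter G, Cfsg.Agent.Lib.Helper78.fsNu (χ : G → ℂ) * aN C χ =
        ((Cfsg.Agent.Lib.Helper78.fsNuZ (χ : G → ℂ) * (n χ : ℤ) : ℤ) : ℂ) := by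
      intro χ
      rw [hn χ, ← Cfsg.Agent.Lib.Helper78.fsNuZ_cast χ.2]
      push_cast
      rfl
    simp only [h3] at h
    unfold qC at h
    exact_mod_cast h
  have h3 : ∑ χ : IrrCharacter G,
      ((n χ : ℤ) ^ 2 - Cfsg.Agent.Lib.Helper78.fsNuZ (χ : G → ℂ) * (n χ : ℤ)) = 0 := by
    rw [Finset.sum_sub_distrib, h1, h2, sub_self]
  have hnn : ∀ χ : IrrCharacter G,
      0 ≤ (n χ : ℤ) ^ 2 - Cfsg.Agent.Lib.Helper78.fsNuZ (χ : G → ℂ) * (n χ : ℤ) := by
    intro χ
    have h0 : (0 : ℤ) ≤ n χ := Int.natCast_nonneg _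
    rcases Cfsg.Agent.Lib.Helper78.fsNuZ_cases (χ : G → ℂ) with h | h | h <;> rw [h] <;> nlinarith
  have h4 := (Finset.sum_eq_zero_iff_of_nonneg (fun χ _ => hnn χ)).1 h3 χ (Finset.mem_univ χ)
  have h0 : (0 : ℤ) ≤ n χ := Int.natCast_nonneg _
  have h5 : (n χ : ℤ) = 0 ∨ (n χ : ℤ) = 1 := by
    rcases Cfsg.Agent.Lib.Helper78.fsNuZ_cases (χ : G → ℂ) with h | h | h <;> rw [h] at h4
    · left; nlinarith
    · have : (n χ : ℤ) * ((n χ : ℤ) - 1) = 0 := by linear_combination h4
      rcases mul_eq_zero.1 this with h6 | h6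
      · exact Or.inl h6
      · exact Or.inr (by linarith)
    · left; nlinarith
  rw [hn χ]
  rcases h5 with h5 | h5
  · left; exact_mod_cast h5
  · right; exact_mod_cast h5

end Cfsg.Agent.Lib.Helper44.SzDeg
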