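import Cfsg.Agent.Lib.Helper44.SzDeg.Defs

set_option autoImplicit false

namespace Cfsg.Agent.Lib.Helper44.SzDeg

open Cfsg
open scoped ComplexConjugate

variable {F : Type*} [Field F] [Fintype F] [CharP F 2] {G : Type*} [Group G] [Finite G] {m : ℕ}

/-- the four test elements. -/
def pt (C : Cfg F G m) : Fin 4 → G := ![1, C.t 0 1, C.t 1 0, C.t 1 1]

/-- their centralizer orders. -/
noncomputable def wt (m : ℕ) : Fin 4 → ℂ :=
  ![qC m ^ 2 * (qC m ^ 2 + 1) * (qC m - 1), qC m ^ 2, 2 * qC m, 2 * qC m]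

omit [CharP F 2] [Finite G] in
theorem gram0_t00 (C : Cfg F G m) : C.t 0 0 = 1 := by
  have h := C.hmul 0 0 0 0
  simp only [add_zero, map_zero, mul_zero] at h
  simpa using h

omit [CharP F 2] [Finite G] in
theorem gram0_card (C : Cfg F G m) (S : G → Prop) (P : F → Prop)
    (h : ∀ z, S z ↔ ∃ c d, z = C.t c d ∧ P c) :
    Nat.card {z // S z} = Nat.card {c // P c} * Fintype.card F := by
  rw [← Nat.card_eq_fintype_card (α := F), ← Nat.card_prod]
  apply Nat.card_congr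
  symm
  refine Equiv.ofBijective (fun x => ⟨C.t x.1.1 x.2, (h _).2 ⟨x.1.1, x.2, rfl, x.1.2⟩⟩) ⟨?_, ?_⟩
  · rintro ⟨⟨a, ha⟩, b⟩ ⟨⟨c, hc⟩, d⟩ hx
    have h1 := C.hinj _ _ _ _ (congrArg Subtype.val hx)
    obtain ⟨h2, h3⟩ := h1
    simp only at h2 h3
    subst h2
    subst h3
    rfl
  · rintro ⟨z, hz⟩
    obtain ⟨c, d, rfl, hP⟩ := (h z).1 hz
    exact ⟨(⟨c, hP⟩, d), rfl⟩

omit [CharP F 2] [Finite G] in
theorem gram0_fix (C : Cfg F G m) (c : F) : C.σ c = c ↔ c = 0 ∨ c = 1 := by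
  constructor
  · intro h
    have h1 := C.hσ c
    rw [h, h] at h1
    have h2 : c * (c - 1) = 0 := by linear_combination -h1
    rcases mul_eq_zero.1 h2 with h3 | h3
    · exact Or.inl h3
    · exact Or.inr (by linear_combination h3)
  · rintro (rfl | rfl) <;> simp

omit [CharP F 2] [Finite G] in
theorem gram0_card_fix (C : Cfg F G m) : Nat.card {c : F // C.σ c = c} = 2 := by
  rw [Nat.card_eq_two_iff]
  refine ⟨⟨0, by simp⟩, ⟨1, by simp⟩, ?_, ?_⟩
  · intro h
    exact zero_ne_one (congrArg Subtype.val h)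
  · ext ⟨c, hc⟩
    simp only [Set.mem_insert_iff, Set.mem_singleton_iff, Set.mem_univ, iff_true, Subtype.mk.injEq]
    exact (gram0_fix C c).1 hc

omit [CharP F 2] [Finite G] in
theorem gram0_q (C : Cfg F G m) : (Fintype.card F : ℂ) = qC m := by
  rw [C.hF]; unfold qC; push_cast; rfl

omit [CharP F 2] [Finite G] in
theorem gram0_cent1 (C : Cfg F G m) (b z : G) (hb : b = C.t 0 1) :
    z * b = b * z ↔ ∃ c d, z = C.t c d ∧ True := by
  subst hb
  constructor
  · intro h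
    obtain ⟨c, d, rfl⟩ := C.hcent 0 1 z (by simp) h
    exact ⟨c, d, rfl, trivial⟩
  · rintro ⟨c, d, rfl, -⟩
    rw [C.hmul, C.hmul]
    simp [add_comm]

omit [CharP F 2] [Finite G] in
theorem gram0_cent2 (C : Cfg F G m) (b : F) (z : G) :
    z * C.t 1 b = C.t 1 b * z ↔ ∃ c d, z = C.t c d ∧ C.σ c = c := by
  constructor
  · intro h
    obtain ⟨c, d, rfl⟩ := C.hcent 1 b z (by simp) h
    refine ⟨c, d, rfl, ?_⟩
    rw [C.hmul, C.hmul] at h
    have h1 := (C.hinj _ _ _ _ h).2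
    simp only [map_one, mul_one, one_mul] at h1
    linear_combination h1
  · rintro ⟨c, d, rfl, hc⟩
    rw [C.hmul, C.hmul, hc]
    simp only [map_one, mul_one, one_mul]
    rw [add_comm c 1, add_comm d b]

theorem gram_pt (C : Cfg F G m) (i j : Fin 4) :
    ∑ χ : IrrCharacter G, (χ : G → ℂ) (pt C i) * conj ((χ : G → ℂ) (pt C j)) =
      if i = j then wt m i else 0 := by
  classical
  have := Fintype.ofFinite G
  have two0 : (1 : F) + 1 = 0 := CharTwo.add_self_eq_zero 1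
  have e1 : C.t 0 1 ≠ 1 := by
    rw [← gram0_t00 C]
    intro h
    exact one_ne_zero (C.hinj _ _ _ _ h).2
  have e2 : ∀ b, C.t 1 b ≠ 1 := by
    intro b
    rw [← gram0_t00 C]
    intro h
    exact one_ne_zero (C.hinj _ _ _ _ h).1
  have s1 : C.t 0 1 ^ 2 = 1 := by
    rw [sq, C.hmul, ← gram0_t00 C]
    simp [two0]
  have s2 : ∀ b, C.t 1 b ^ 2 = C.t 0 1 := by
    intro b
    rw [sq, C.hmul]
    simp [two0, CharTwo.add_self_eq_zero]
  have n12 : ∀ b, ¬ IsConj (C.t 0 1) (C.t 1 b) := by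
    intro b h
    have h1 := h.pow 2
    rw [s1, s2] at h1
    exact e1 (isConj_one_right.1 h1)
  have zero : ∀ g h : G, ¬ IsConj g h →
      ∑ χ : IrrCharacter G, (χ : G → ℂ) g * conj ((χ : G → ℂ) h) = 0 := by
    intro g h hc
    rw [Cfsg.Agent.Lib.Helper20.sum_irr_mul_conj g h, if_neg hc]
  have d0 : ∑ χ : IrrCharacter G, (χ : G → ℂ) 1 * conj ((χ : G → ℂ) 1) =
      qC m ^ 2 * (qC m ^ 2 + 1) * (qC m - 1) := by
    rw [sum_irr_mul_conj_eq_card]
    have h1 : Nat.card {z : G // z * 1 = 1 * z} = Nat.card G :=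
      Nat.card_congr (Equiv.subtypeUnivEquiv (fun z => by simp))
    rw [h1, C.hcard]
    have h2 : 1 ≤ 2 ^ (2 * m + 1) := Nat.one_le_two_pow
    push_cast [Nat.cast_sub h2]
    unfold qC
    ring
  have d1 : ∑ χ : IrrCharacter G, (χ : G → ℂ) (C.t 0 1) * conj ((χ : G → ℂ) (C.t 0 1)) =
      qC m ^ 2 := by
    rw [sum_irr_mul_conj_eq_card, gram0_card C _ (fun _ => True)
      (fun z => gram0_cent1 C (C.t 0 1) z rfl)]
    have h1 : Nat.card {c : F // True} = Fintype.card F := by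
      rw [← Nat.card_eq_fintype_card]
      exact Nat.card_congr (Equiv.subtypeUnivEquiv (fun _ => trivial))
    rw [h1]
    push_cast
    rw [gram0_q C]
    ring
  have d2 : ∀ b, ∑ χ : IrrCharacter G, (χ : G → ℂ) (C.t 1 b) * conj ((χ : G → ℂ) (C.t 1 b)) =
      2 * qC m := by
    intro b
    rw [sum_irr_mul_conj_eq_card, gram0_card C _ (fun c => C.σ c = c)
      (fun z => gram0_cent2 C b z), gram0_card_fix C]
    push_cast
    rw [gram0_q C]
  fin_cases i <;> fin_cases j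
  · simpa [pt, wt] using d0
  · simpa [pt, wt] using zero 1 (C.t 0 1) (fun h => e1 (isConj_one_right.1 h))
  · simpa [pt, wt] using zero 1 (C.t 1 0) (fun h => e2 0 (isConj_one_right.1 h))
  · simpa [pt, wt] using zero 1 (C.t 1 1) (fun h => e2 1 (isConj_one_right.1 h))
  · simpa [pt, wt] using zero (C.t 0 1) 1 (fun h => e1 (isConj_one_left.1 h))
  · simpa [pt, wt] using d1
  · simpa [pt, wt] using zero _ _ (n12 0)
  · simpa [pt, wt] using zero _ _ (n12 1)
  · simpa [pt, wt] using zero (C.t 1 0) 1 (fun h => e2 0 (isConj_one_left.1 h))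
  · simpa [pt, wt] using zero _ _ (fun h => n12 0 h.symm)
  · simpa [pt, wt] using d2 0
  · simpa [pt, wt] using zero _ _ C.hnc
  · simpa [pt, wt] using zero (C.t 1 1) 1 (fun h => e2 1 (isConj_one_left.1 h))
  · simpa [pt, wt] using zero _ _ (fun h => n12 1 h.symm)
  · simpa [pt, wt] using zero _ _ (fun h => C.hnc h.symm)
  · simpa [pt, wt] using d2 1

end Cfsg.Agent.Lib.Helper44.SzDeg
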