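import Mathlib
import Cfsg.Prelude.Def_DegreeGraph

set_option autoImplicit false

namespace Cfsg.Agent.Lib.Helper44.SzDeg

open Cfsg

/-- `q ^ 2 + 1 = (q + r + 1) (q - r + 1)` for `q = 2 ^ (2 m + 1)`, `r = 2 ^ (m + 1)` -/
theorem graph_factor (m q : ℕ) (hqm : q = 2 ^ (2 * m + 1)) :
    (q + 2 ^ (m + 1) + 1) * (q - 2 ^ (m + 1) + 1) = q ^ 2 + 1 := by
  have hle : 2 ^ (m + 1) ≤ q := by
    rw [hqm]; exact Nat.pow_le_pow_right (by norm_num) (by omega)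
  have hR2 : 2 ^ (m + 1) * 2 ^ (m + 1) = 2 * q := by
    rw [hqm, ← pow_add, ← pow_succ']
    congr 1
    omega
  generalize 2 ^ (m + 1) = R at *
  obtain ⟨c, rfl⟩ := Nat.exists_eq_add_of_le hle
  have h1 : R + c - R = c := by omega
  rw [h1]
  nlinarith [hR2]

theorem graph_of_degrees {S : Type*} [Group S] (m q : ℕ) (hm : 1 ≤ m) (hqm : q = 2 ^ (2 * m + 1))
    (hsub : ∀ d ∈ Cfsg.charDegrees S, d = 1 ∨ d = q ^ 2 ∨ d = q ^ 2 + 1 ∨ d = 2 ^ m * (q - 1) ∨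
      d = (q - 1) * (q + 2 ^ (m + 1) + 1) ∨ d = (q - 1) * (q - 2 ^ (m + 1) + 1))
    (h1 : q ^ 2 ∈ Cfsg.charDegrees S) (h2 : q ^ 2 + 1 ∈ Cfsg.charDegrees S)
    (h3 : 2 ^ m * (q - 1) ∈ Cfsg.charDegrees S)
    (h4 : (q - 1) * (q + 2 ^ (m + 1) + 1) ∈ Cfsg.charDegrees S)
    (h5 : (q - 1) * (q - 2 ^ (m + 1) + 1) ∈ Cfsg.charDegrees S) :
    Cfsg.degreePrimes S = {r : ℕ | r.Prime ∧ (r = 2 ∨ r ∣ (q - 1) * (q ^ 2 + 1))} ∧
    ∀ r s : ℕ, (Cfsg.degreeGraph S).Adj r s ↔ (r ≠ s ∧ r.Prime ∧ s.Prime ∧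
      ((r ∣ (q - 1) * (q ^ 2 + 1) ∧ s ∣ (q - 1) * (q ^ 2 + 1)) ∨ (r = 2 ∧ s ∣ q - 1) ∨
        (s = 2 ∧ r ∣ q - 1))) := by
  have hfac := graph_factor m q hqm
  have hq2 : ∀ r : ℕ, r.Prime → r ∣ q ^ 2 → r = 2 := by
    intro r hr h
    rw [hqm] at h
    exact (Nat.prime_dvd_prime_iff_eq hr Nat.prime_two).1
      (hr.dvd_of_dvd_pow (hr.dvd_of_dvd_pow h))
  have h2m : ∀ r : ℕ, r.Prime → r ∣ 2 ^ m → r = 2 := by
    intro r hr h
    exact (Nat.prime_dvd_prime_iff_eq hr Nat.prime_two).1 (hr.dvd_of_dvd_pow h)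
  have two_q : 2 ∣ q ^ 2 := by
    rw [hqm, ← pow_mul]
    exact dvd_pow_self 2 (by omega)
  have two_m : 2 ∣ 2 ^ m := dvd_pow_self 2 (by omega)
  generalize hBp : q + 2 ^ (m + 1) + 1 = Bp at *
  generalize hBm : q - 2 ^ (m + 1) + 1 = Bm at *
  generalize hA : q - 1 = A at *
  have hp : ∀ r, r ∣ A * Bp → r ∣ A * (q ^ 2 + 1) := fun r h => by
    rw [← hfac, ← mul_assoc]; exact Dvd.dvd.mul_right h _
  have hmn : ∀ r, r ∣ A * Bm → r ∣ A * (q ^ 2 + 1) := fun r h => by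
    rw [← hfac, mul_comm Bp Bm, ← mul_assoc]; exact Dvd.dvd.mul_right h _
  constructor
  · ext r
    simp only [degreePrimes, Set.mem_ofPred_eq]
    constructor
    · rintro ⟨hr, d, hdD, hd⟩
      refine ⟨hr, ?_⟩
      rcases hsub d hdD with rfl | rfl | rfl | rfl | rfl | rfl
      · exact absurd (Nat.dvd_one.1 hd) hr.one_lt.ne'
      · exact Or.inl (hq2 r hr hd)
      · exact Or.inr (Dvd.dvd.mul_left hd _)
      · rcases (Nat.Prime.dvd_mul hr).1 hd with h | h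
        · exact Or.inl (h2m r hr h)
        · exact Or.inr (Dvd.dvd.mul_right h _)
      · exact Or.inr (hp r hd)
      · exact Or.inr (hmn r hd)
    · rintro ⟨hr, hd⟩
      refine ⟨hr, ?_⟩
      rcases hd with rfl | hd
      · exact ⟨q ^ 2, h1, two_q⟩
      · rcases (Nat.Prime.dvd_mul hr).1 hd with h | h
        · exact ⟨2 ^ m * A, h3, Dvd.dvd.mul_left h _⟩
        · exact ⟨q ^ 2 + 1, h2, h⟩
  · intro r s
    show (r ≠ s ∧ r.Prime ∧ s.Prime ∧ ∃ d ∈ charDegrees S, r * s ∣ d) ↔ _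
    constructor
    · rintro ⟨hne, hr, hs, d, hdD, hd⟩
      have hrd := (dvd_mul_right r s).trans hd
      have hsd := (dvd_mul_left s r).trans hd
      refine ⟨hne, hr, hs, ?_⟩
      rcases hsub d hdD with rfl | rfl | rfl | rfl | rfl | rfl
      · exact absurd (Nat.dvd_one.1 hrd) hr.one_lt.ne'
      · exact absurd ((hq2 r hr hrd).trans (hq2 s hs hsd).symm) hne
      · exact Or.inl ⟨Dvd.dvd.mul_left hrd _, Dvd.dvd.mul_left hsd _⟩
      · rcases (Nat.Prime.dvd_mul hr).1 hrd with hr' | hr' <;>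
          rcases (Nat.Prime.dvd_mul hs).1 hsd with hs' | hs'
        · exact absurd ((h2m r hr hr').trans (h2m s hs hs').symm) hne
        · exact Or.inr (Or.inl ⟨h2m r hr hr', hs'⟩)
        · exact Or.inr (Or.inr ⟨h2m s hs hs', hr'⟩)
        · exact Or.inl ⟨Dvd.dvd.mul_right hr' _, Dvd.dvd.mul_right hs' _⟩
      · exact Or.inl ⟨hp r hrd, hp s hsd⟩
      · exact Or.inl ⟨hmn r hrd, hmn s hsd⟩
    · rintro ⟨hne, hr, hs, hcase⟩
      refine ⟨hne, hr, hs, ?_⟩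
      have hcop := (Nat.coprime_primes hr hs).2 hne
      rcases hcase with ⟨hr1, hs1⟩ | ⟨rfl, hs1⟩ | ⟨rfl, hr1⟩
      · rw [← hfac] at hr1 hs1
        have hr3 : r ∣ A ∨ r ∣ Bp ∨ r ∣ Bm := by
          rcases (Nat.Prime.dvd_mul hr).1 hr1 with h | h
          · exact Or.inl h
          · exact Or.inr ((Nat.Prime.dvd_mul hr).1 h)
        have hs3 : s ∣ A ∨ s ∣ Bp ∨ s ∣ Bm := by
          rcases (Nat.Prime.dvd_mul hs).1 hs1 with h | h
          · exact Or.inl h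
          · exact Or.inr ((Nat.Prime.dvd_mul hs).1 h)
        rcases hr3 with hr3 | hr3 | hr3 <;> rcases hs3 with hs3 | hs3 | hs3
        · exact ⟨A * Bp, h4, Dvd.dvd.mul_right
            (Nat.Coprime.mul_dvd_of_dvd_of_dvd hcop hr3 hs3) _⟩
        · exact ⟨A * Bp, h4, mul_dvd_mul hr3 hs3⟩
        · exact ⟨A * Bm, h5, mul_dvd_mul hr3 hs3⟩
        · exact ⟨A * Bp, h4, by rw [mul_comm r s]; exact mul_dvd_mul hs3 hr3⟩
        · exact ⟨A * Bp, h4, Dvd.dvd.mul_left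
            (Nat.Coprime.mul_dvd_of_dvd_of_dvd hcop hr3 hs3) _⟩
        · exact ⟨q ^ 2 + 1, h2, by rw [← hfac]; exact mul_dvd_mul hr3 hs3⟩
        · exact ⟨A * Bm, h5, by rw [mul_comm r s]; exact mul_dvd_mul hs3 hr3⟩
        · exact ⟨q ^ 2 + 1, h2, by rw [← hfac, mul_comm r s]; exact mul_dvd_mul hs3 hr3⟩
        · exact ⟨A * Bm, h5, Dvd.dvd.mul_left
            (Nat.Coprime.mul_dvd_of_dvd_of_dvd hcop hr3 hs3) _⟩
      · exact ⟨2 ^ m * A, h3, mul_dvd_mul two_m hs1⟩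
      · exact ⟨2 ^ m * A, h3, by rw [mul_comm r 2]; exact mul_dvd_mul two_m hr1⟩

end Cfsg.Agent.Lib.Helper44.SzDeg
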