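import Cfsg.Agent.Lib.Helper44.SzDeg.VAL
import Cfsg.Agent.Lib.Helper44.MulCharOrth
import Cfsg.Agent.Lib.Helper19.IndFun2
import Cfsg.Agent.Lib.Helper19.IndChar

set_option autoImplicit false

namespace Cfsg.Agent.Lib.Helper44.SzDeg

open Cfsg
open scoped ComplexConjugate

variable {F : Type*} [Field F] [Fintype F] [CharP F 2] {G : Type*} [Group G] [Fintype G] {m : ℕ}

/-- the linear character `λ ∘ δ` of `B`. -/
noncomputable def thetaHom (C : Cfg F G m) (lam : MulChar F ℂ) : C.B →* ℂ :=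
  (lam.toMonoidHom).comp ((Units.coeHom F).comp C.δ)

omit [CharP F 2] [Fintype G] in
theorem thetaHom_apply (C : Cfg F G m) (lam : MulChar F ℂ) (x : C.B) :
    thetaHom C lam x = lam ((C.δ x : Fˣ) : F) := rfl

omit [CharP F 2] [Fintype G] in
theorem card_F (C : Cfg F G m) : (Fintype.card F : ℂ) = qC m := by
  rw [C.hF]; unfold qC; push_cast; rfl

omit [CharP F 2] [Fintype G] in
theorem sum_ker (C : Cfg F G m) [Fintype C.B] [DecidableEq Fˣ] (f : C.B → ℂ) :
    ∑ x : C.B, (if C.δ x = 1 then f x else 0) = ∑ a : F, ∑ b : F, f ⟨C.t a b, C.hB a b⟩ := by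
  rw [← Fintype.sum_prod_type (f := fun p : F × F => f ⟨C.t p.1 p.2, C.hB p.1 p.2⟩)]
  symm
  apply Fintype.sum_of_injective (fun p : F × F => (⟨C.t p.1 p.2, C.hB p.1 p.2⟩ : C.B))
  · intro p p' h
    have := C.hinj _ _ _ _ (congrArg Subtype.val h)
    exact Prod.ext this.1 this.2
  · intro x hx
    rw [if_neg]
    intro h1
    obtain ⟨a, b, hab⟩ := (C.hδ x).mp h1
    exact hx ⟨(a, b), Subtype.ext hab.symm⟩
  · intro p
    rw [if_pos]
    exact (C.hδ _).mpr ⟨p.1, p.2, rfl⟩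

omit [CharP F 2] in
theorem card_B (C : Cfg F G m) : (Nat.card C.B : ℂ) = qC m ^ 2 * (qC m - 1) := by
  classical
  have h1 : Nat.card C.B = Nat.card C.δ.ker * Nat.card Fˣ := by
    rw [← Subgroup.card_mul_index C.δ.ker, Subgroup.index_ker,
      MonoidHom.range_eq_top.mpr C.hδs]
    congr 1
    exact Nat.card_congr Subgroup.topEquiv.toEquiv
  have h2 : Nat.card C.δ.ker = Fintype.card F * Fintype.card F := by
    rw [← Fintype.card_prod, ← Nat.card_eq_fintype_card]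
    symm
    apply Nat.card_congr
    refine Equiv.ofBijective (fun p : F × F =>
      (⟨⟨C.t p.1 p.2, C.hB p.1 p.2⟩, (C.hδ _).mpr ⟨p.1, p.2, rfl⟩⟩ : C.δ.ker)) ⟨?_, ?_⟩
    · intro p p' h
      have := C.hinj _ _ _ _ (congrArg (fun z : C.δ.ker => ((z : C.B) : G)) h)
      exact Prod.ext this.1 this.2
    · rintro ⟨x, hx⟩
      obtain ⟨a, b, hab⟩ := (C.hδ x).mp hx
      exact ⟨(a, b), Subtype.ext (Subtype.ext hab.symm)⟩
  rw [h1, h2, Nat.card_eq_fintype_card, Fintype.card_units, Nat.cast_mul, Nat.cast_mul,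
    Nat.cast_sub Fintype.card_pos, card_F C]
  push_cast
  ring

theorem sum_Q (C : Cfg F G m) {χ : G → ℂ} (hχ : IsClassFunction G χ) :
    ∑ a : F, ∑ b : F, χ (C.t a b) = qC m ^ 2 * lN C χ := by
  classical
  have h1 : ∀ a : F, ∑ b : F, χ (C.t a b) =
      (if a = 0 then χ 1 + (qC m - 1) * χ (C.t 0 1) - (qC m / 2) * (χ (C.t 1 0) + χ (C.t 1 1)) else 0) +
        (qC m / 2) * (χ (C.t 1 0) + χ (C.t 1 1)) := by
    intro a
    by_cases ha : a = 0
    · subst ha
      rw [if_pos rfl, sum_zero C hχ]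
      ring
    · rw [if_neg ha, sum_row C hχ ha, zero_add]
  rw [Finset.sum_congr rfl (fun a _ => h1 a), Finset.sum_add_distrib, Finset.sum_ite_eq' Finset.univ 0,
    if_pos (Finset.mem_univ _), Finset.sum_const, Finset.card_univ, nsmul_eq_mul, card_F C]
  unfold lN
  have := qC_ne_zero m
  field_simp
  ring

/-- the sum of the multiplicities of the `λ ∘ δ` in `χ|_B` is `lN`. -/
theorem sum_inner_theta (C : Cfg F G m) [Fintype C.B] {χ : G → ℂ} (hχ : IsClassFunction G χ) :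
    ∑ lam : MulChar F ℂ, classInner (thetaHom C lam : C.B → ℂ) (fun x : C.B => χ x) =
      conj (lN C χ) := by
  classical
  unfold classInner
  rw [← Finset.mul_sum, Finset.sum_comm]
  have h1 : ∀ x : C.B, ∑ lam : MulChar F ℂ, thetaHom C lam x * conj (χ x) =
      (qC m - 1) * (if C.δ x = 1 then conj (χ x) else 0) := by
    intro x
    rw [← Finset.sum_mul]
    simp only [thetaHom_apply]
    rw [mulChar_dual_orth, card_F C]
    split_ifs <;> simp
  rw [Finset.sum_congr rfl (fun x _ => h1 x), ← Finset.mul_sum, sum_ker C (fun x => conj (χ x))]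
  have h2 : ∑ a : F, ∑ b : F, conj (χ (C.t a b)) = conj (qC m ^ 2 * lN C χ) := by
    rw [← sum_Q C hχ, map_sum]
    apply Finset.sum_congr rfl
    intro a _
    rw [map_sum]
  rw [h2, card_B C, map_mul]
  have hq := qC_ne_zero m
  have hq1 : qC m - 1 ≠ 0 := by
    unfold qC
    have : (2 : ℂ) ^ (2 * m + 1) = ((2 ^ (2 * m + 1) : ℕ) : ℂ) := by push_cast; rfl
    rw [this, sub_ne_zero]
    have h2 : 1 < 2 ^ (2 * m + 1) := Nat.one_lt_two_pow (by omega)
    exact_mod_cast h2.ne'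
  have hcq : conj (qC m ^ 2) = qC m ^ 2 := by
    unfold qC
    rw [map_pow, map_pow, Complex.conj_ofNat]
  rw [hcq]
  field_simp

theorem ind_val (C : Cfg F G m) (lam : MulChar F ℂ) {a b : F} (hab : ¬ (a = 0 ∧ b = 0)) :
    indFun C.B (thetaHom C lam : C.B → ℂ) (C.t a b) = 1 := by
  classical
  have := Fintype.ofFinite C.B
  rw [Cfsg.Agent.Lib.Helper19.indFun_apply]
  have h1 : ∀ x : G, extendByZero C.B (thetaHom C lam : C.B → ℂ) (x⁻¹ * C.t a b * x) =
      extendByZero C.B (fun _ : C.B => (1 : ℂ)) x := by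
    intro x
    by_cases hx : x ∈ C.B
    · have hmem : x⁻¹ * C.t a b * x ∈ C.B := C.B.mul_mem (C.B.mul_mem (C.B.inv_mem hx) (C.hB a b)) hx
      rw [Cfsg.Agent.Lib.Helper19.extendByZero_of_mem _ _ hmem,
        Cfsg.Agent.Lib.Helper19.extendByZero_of_mem _ _ hx, thetaHom_apply]
      have e : (⟨x⁻¹ * C.t a b * x, hmem⟩ : C.B) = (⟨x, hx⟩ : C.B)⁻¹ * ⟨C.t a b, C.hB a b⟩ * ⟨x, hx⟩ := rfl
      have e2 : C.δ ⟨C.t a b, C.hB a b⟩ = 1 := (C.hδ _).mpr ⟨a, b, rfl⟩
      rw [e, map_mul, map_mul, e2, map_inv]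
      simp
    · have hmem : x⁻¹ * C.t a b * x ∉ C.B := fun h => hx (C.hfix a b x hab h)
      rw [Cfsg.Agent.Lib.Helper19.extendByZero_of_not_mem _ _ hmem,
        Cfsg.Agent.Lib.Helper19.extendByZero_of_not_mem _ _ hx]
  rw [Finset.sum_congr rfl (fun x _ => h1 x), Cfsg.Agent.Lib.Helper19.sum_extendByZero]
  simp only [Finset.sum_const, Finset.card_univ, nsmul_eq_mul, mul_one]
  rw [← Nat.card_eq_fintype_card]
  have : (Nat.card C.B : ℂ) ≠ 0 := by exact_mod_cast Nat.card_pos.ne'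
  field_simp

theorem ind_one (C : Cfg F G m) (lam : MulChar F ℂ) :
    indFun C.B (thetaHom C lam : C.B → ℂ) 1 = qC m ^ 2 + 1 := by
  classical
  rw [Cfsg.Agent.Lib.Helper19.indFun_apply]
  have h1 : ∀ x : G, extendByZero C.B (thetaHom C lam : C.B → ℂ) (x⁻¹ * 1 * x) = 1 := by
    intro x
    have e : x⁻¹ * 1 * x = ((1 : C.B) : G) := by simp
    rw [e, Cfsg.Agent.Lib.Helper19.extendByZero_coe, map_one]
  rw [Finset.sum_congr rfl (fun x _ => h1 x)]
  simp only [Finset.sum_const, Finset.card_univ, nsmul_eq_mul, mul_one]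
  rw [← Nat.card_eq_fintype_card, card_B C, C.hcard]
  have hone : (1 : ℕ) ≤ 2 ^ (2 * m + 1) := Nat.one_le_two_pow
  have hq := qC_ne_zero m
  have hq1 : qC m - 1 ≠ 0 := by
    unfold qC
    have : (2 : ℂ) ^ (2 * m + 1) = ((2 ^ (2 * m + 1) : ℕ) : ℂ) := by push_cast; rfl
    rw [this, sub_ne_zero]
    have h2 : 1 < 2 ^ (2 * m + 1) := Nat.one_lt_two_pow (by omega)
    exact_mod_cast h2.ne'
  have e : (((2 ^ (2 * m + 1)) ^ 2 * ((2 ^ (2 * m + 1)) ^ 2 + 1) * (2 ^ (2 * m + 1) - 1) : ℕ) : ℂ) =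
      qC m ^ 2 * (qC m ^ 2 + 1) * (qC m - 1) := by
    unfold qC
    push_cast [Nat.cast_sub hone]
    ring
  rw [e]
  field_simp

theorem exists_ind (C : Cfg F G m) (χ : IrrCharacter G) (h : lN C χ ≠ 0) :
    ∃ R : G → ℂ, IsCharacter G R ∧ classInner R χ ≠ 0 ∧ R 1 = qC m ^ 2 + 1 ∧ R (C.t 0 1) = 1 ∧
      R (C.t 1 0) = 1 ∧ R (C.t 1 1) = 1 ∧
      ∀ χ' : IrrCharacter G, classInner R χ' ≠ 0 → lN C χ' ≠ 0 := by
  classical
  have := Fintype.ofFinite C.B
  have hch : ∀ χ : IrrCharacter G, IsCharacter G (χ : G → ℂ) :=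
    fun χ => Cfsg.Agent.Lib.Helper20.isCharacter_of_isIrrCharacter χ.2
  have hcl : ∀ χ : IrrCharacter G, IsClassFunction G (χ : G → ℂ) :=
    fun χ => Cfsg.Agent.Lib.Helper20.isClassFunction_of_isCharacter (hch χ)
  -- the multiplicities are natural numbers
  have hnat : ∀ (χ' : IrrCharacter G) (lam : MulChar F ℂ), ∃ n : ℕ,
      classInner (thetaHom C lam : C.B → ℂ) (fun x : C.B => (χ' : G → ℂ) x) = n := by
    intro χ' lam
    have h1 : IsCharacter C.B (fun x : C.B => (χ' : G → ℂ) x) :=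
      Cfsg.Agent.Lib.Helper20.isCharacter_comp_hom (hch χ') C.B.subtype
    obtain ⟨n, hn⟩ := Cfsg.Agent.Lib.Helper20.isCharacter_classInner_nat h1
      (isIrrCharacter_monoidHom (thetaHom C lam))
    refine ⟨n, ?_⟩
    rw [← Cfsg.Agent.Lib.Helper20.classInner_conj_symm, hn]
    simp
  have hex : ∃ lam : MulChar F ℂ,
      classInner (thetaHom C lam : C.B → ℂ) (fun x : C.B => (χ : G → ℂ) x) ≠ 0 := by
    by_contra hcon
    push Not at hcon
    apply h
    have := sum_inner_theta C (hcl χ)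
    rw [Finset.sum_congr rfl (fun lam _ => hcon lam)] at this
    simp only [Finset.sum_const_zero] at this
    have h2 := congrArg conj this
    simpa using h2.symm
  obtain ⟨lam, hlam⟩ := hex
  refine ⟨indFun C.B (thetaHom C lam : C.B → ℂ),
    Cfsg.Agent.Lib.Helper19.isCharacter_indFun C.B _ (isCharacter_monoidHom _), ?_, ind_one C lam,
    ind_val C lam (by simp), ind_val C lam (by simp), ind_val C lam (by simp), ?_⟩
  · rw [Cfsg.Agent.Lib.Helper19.frobenius_reciprocity C.B _ _ (hcl χ)]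
    exact hlam
  · intro χ' hχ' h0
    rw [Cfsg.Agent.Lib.Helper19.frobenius_reciprocity C.B _ _ (hcl χ')] at hχ'
    have hs := sum_inner_theta C (hcl χ')
    rw [h0, map_zero] at hs
    choose n hn using hnat χ'
    simp only [hn] at hs hχ'
    have hs' : ∑ lam : MulChar F ℂ, n lam = 0 := by exact_mod_cast hs
    have := (Finset.sum_eq_zero_iff.mp hs') lam (Finset.mem_univ _)
    apply hχ'
    rw [this]
    simp

end Cfsg.Agent.Lib.Helper44.SzDeg
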