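import Cfsg.Agent.Lib.Helper44.SzDeg.VAL
import Cfsg.Agent.Lib.Helper44.SuzBound

set_option autoImplicit false

namespace Cfsg.Agent.Lib.Helper44.SzDeg

open Cfsg
open scoped ComplexConjugate

theorem intb_descent : ∀ (m k₁ k₂ : ℕ), k₁ ^ 2 + k₂ ^ 2 = 4 ^ m → 2 ^ m ∣ k₁ ∧ 2 ^ m ∣ k₂ := by
  intro m
  induction m with
  | zero => intro k₁ k₂ _; simp
  | succ m ih =>
    intro k₁ k₂ h
    rw [pow_succ] at h
    rcases Nat.even_or_odd' k₁ with ⟨a, rfl | rfl⟩ <;> rcases Nat.even_or_odd' k₂ with ⟨b, rfl | rfl⟩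
    · have h2 : a ^ 2 + b ^ 2 = 4 ^ m := by
        ring_nf at h
        omega
      obtain ⟨h3, h4⟩ := ih a b h2
      rw [pow_succ']
      exact ⟨mul_dvd_mul_left 2 h3, mul_dvd_mul_left 2 h4⟩
    · exfalso
      ring_nf at h
      omega
    · exfalso
      ring_nf at h
      omega
    · exfalso
      ring_nf at h
      omega

/-- the homomorphism from `Z/4` given by an element with `y ^ 4 = 1`. -/
def intbZ4 {H : Type*} [Monoid H] (y : H) (hy : y ^ 4 = 1) : Multiplicative (ZMod 4) →* H where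
  toFun k := y ^ (Multiplicative.toAdd k).val
  map_one' := by simp
  map_mul' a b := by
    rw [toAdd_mul, ZMod.val_add, ← pow_add, ← pow_eq_pow_mod _ hy]

theorem intb_sum_z4 (f : Multiplicative (ZMod 4) → ℂ) :
    ∑ g, f g = f (Multiplicative.ofAdd 0) + f (Multiplicative.ofAdd 1) + f (Multiplicative.ofAdd 2)
      + f (Multiplicative.ofAdd 3) := by
  have : ∑ g : Multiplicative (ZMod 4), f g = ∑ k : Fin 4, f (Multiplicative.ofAdd (k : ZMod 4)) :=
    Fintype.sum_equiv Multiplicative.toAdd _ _ (fun x => rfl)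
  rw [this, Fin.sum_univ_four]
  rfl

theorem intb_eig {Q : Type*} [Group Q] {η : Q → ℂ} (hη : IsCharacter Q η) (y : Q) (hy : y ^ 4 = 1)
    (h2 : η (y ^ 2) = - η 1) (h3 : η (y ^ 3) = - η y) {ε : ℂ} (hε : ε ^ 2 = -1) :
    ∃ k : ℕ, (η 1 + ε * η y) / 2 = k := by
  have hc2 : (conj ε) ^ 2 = -1 := by rw [← map_pow, hε]; simp
  have hc : (conj ε) ^ 4 = 1 := by
    have : (conj ε) ^ 4 = ((conj ε) ^ 2) ^ 2 := by ring
    rw [this, hc2]; norm_num
  have h1 : IsCharacter (Multiplicative (ZMod 4)) (η ∘ intbZ4 y hy) :=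
    Cfsg.Agent.Lib.Helper20.isCharacter_comp_hom hη _
  have h2' : IsIrrCharacter (Multiplicative (ZMod 4)) (intbZ4 (conj ε) hc) :=
    isIrrCharacter_monoidHom _
  obtain ⟨n, hn⟩ := Cfsg.Agent.Lib.Helper20.isCharacter_classInner_nat h1 h2'
  refine ⟨n, ?_⟩
  rw [← hn]
  unfold classInner
  rw [intb_sum_z4]
  have v0 : (Multiplicative.toAdd (Multiplicative.ofAdd (0 : ZMod 4))).val = 0 := rfl
  have v1 : (Multiplicative.toAdd (Multiplicative.ofAdd (1 : ZMod 4))).val = 1 := rfl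
  have v2 : (Multiplicative.toAdd (Multiplicative.ofAdd (2 : ZMod 4))).val = 2 := rfl
  have v3 : (Multiplicative.toAdd (Multiplicative.ofAdd (3 : ZMod 4))).val = 3 := rfl
  have hcard : (Nat.card (Multiplicative (ZMod 4)) : ℂ) = 4 := by
    rw [Nat.card_eq_fintype_card, Fintype.card_multiplicative, ZMod.card]; norm_num
  simp only [Function.comp_apply, intbZ4, MonoidHom.coe_mk, OneHom.coe_mk, v0, v1, v2, v3, pow_zero,
    pow_one, h2, h3, map_pow, Complex.conj_conj, map_one, hcard]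
  have e3 : ε ^ 3 = - ε := by
    have : ε ^ 3 = ε ^ 2 * ε := by ring
    rw [this, hε]; ring
  rw [hε, e3]
  ring


section abs

variable {F : Type*} [Field F] [Fintype F] [CharP F 2] {Q : Type*} [Group Q]

/-- the multiplicity of the linear character `t 0 b ↦ ψ b`, `t 1 b ↦ conj ε * ψ b` of `Y`. -/
noncomputable def intbN (t : F → F → Q) (ψ : AddChar F ℂ) (ε : ℂ) (φ : Q → ℂ) : ℂ :=
  (∑ b : F, φ (t 0 b) * ψ b + ε * ∑ b : F, φ (t 1 b) * ψ b) / (2 * (Fintype.card F : ℂ))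

omit [CharP F 2] [Group Q] in
theorem intbN_add (t : F → F → Q) (ψ : AddChar F ℂ) (ε : ℂ) (φ₁ φ₂ : Q → ℂ) :
    intbN t ψ ε (φ₁ + φ₂) = intbN t ψ ε φ₁ + intbN t ψ ε φ₂ := by
  unfold intbN
  simp only [Pi.add_apply, add_mul, Finset.sum_add_distrib]
  ring

omit [CharP F 2] [Group Q] in
theorem intbN_zero (t : F → F → Q) (ψ : AddChar F ℂ) (ε : ℂ) : intbN t ψ ε 0 = 0 := by
  simp [intbN]

omit [Fintype F] in
theorem intb_psi_sq (ψ : AddChar F ℂ) (b : F) : ψ b * ψ b = 1 := by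
  rw [← AddChar.map_add_eq_mul, CharTwo.add_self_eq_zero, AddChar.map_zero_eq_one]

theorem intb_psi_conj (ψ : AddChar F ℂ) (b : F) : conj (ψ b) = ψ b := by
  rw [← AddChar.map_neg_eq_conj, CharTwo.neg_eq]

omit [Fintype F] [CharP F 2] in
theorem intb_t00 (t : F → F → Q) (σ : F →+* F)
    (hmul : ∀ a b c d, t a b * t c d = t (a + c) (b + d + σ a * c)) : t 0 0 = 1 := by
  have := hmul 0 0 0 0
  simp only [add_zero, map_zero, mul_zero] at this
  exact mul_eq_left.1 this

/-- the centre as an additive character. -/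
def intbZ (t : F → F → Q) (σ : F →+* F)
    (hmul : ∀ a b c d, t a b * t c d = t (a + c) (b + d + σ a * c)) : AddChar F Q where
  toFun b := t 0 b
  map_zero_eq_one' := intb_t00 t σ hmul
  map_add_eq_mul' a b := by rw [hmul]; simp

omit [Fintype F] [CharP F 2] in
theorem intb_center (t : F → F → Q) (ht : Function.Surjective (fun p : F × F => t p.1 p.2)) (σ : F →+* F)
    (hmul : ∀ a b c d, t a b * t c d = t (a + c) (b + d + σ a * c)) (b : F) :
    t 0 b ∈ Subgroup.center Q := by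
  rw [Subgroup.mem_center_iff]
  intro g
  obtain ⟨⟨c, d⟩, rfl⟩ := ht g
  simp only
  rw [hmul, hmul]
  congr 1
  · rw [add_comm]
  · simp [add_comm]

theorem intb_irr [Fintype Q] (t : F → F → Q) (ht : Function.Bijective (fun p : F × F => t p.1 p.2))
    (σ : F →+* F) (hσ : ∀ x, σ (σ x) = x ^ 2)
    (hmul : ∀ a b c d, t a b * t c d = t (a + c) (b + d + σ a * c)) (ψ : AddChar F ℂ) (hψ1 : ψ 1 = -1)
    (hψσ : ∀ c, ψ (c + σ c) = 1) {m : ℕ} (hF : Fintype.card F = 2 ^ (2 * m + 1))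
    {ε : ℂ} (hε : ε ^ 2 = -1) (hε' : ε * conj ε = 1) {η : Q → ℂ} (hη : IsIrrCharacter Q η) :
    ∃ k : ℕ, intbN t ψ ε η = 2 ^ m * k := by
  classical
  have hch := Cfsg.Agent.Lib.Helper20.isCharacter_of_isIrrCharacter hη
  have hcl := Cfsg.Agent.Lib.Helper20.isClassFunction_of_isCharacter hch
  have hq : (Fintype.card F : ℂ) ≠ 0 := card_ne_zero'
  have hcenter := intb_center t ht.2 σ hmul
  have h00 := intb_t00 t σ hmul
  by_cases h0 : mS ψ (intbZ t σ hmul) η 1 = 0
  · have hS0 : ∑ b, η (t 0 b) * ψ b = 0 := by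
      unfold mS at h0
      simp only [one_mul, intb_psi_conj] at h0
      exact (mul_eq_zero.1 h0).resolve_left (inv_ne_zero hq)
    have hS1 : ∑ b, η (t 1 b) * ψ b = 0 := by
      have : ∀ b, η (t 1 b) * ψ b = η (t 1 0) / η 1 * (η (t 0 b) * ψ b) := by
        intro b
        have e : t 1 b = t 1 0 * t 0 b := by rw [hmul]; simp
        rw [e, Cfsg.Agent.Lib.Helper79.IsIrrCharacter.mul_central hη (t 0 b) (hcenter b) (t 1 0)]
        ring
      rw [Finset.sum_congr rfl (fun b _ => this b), ← Finset.mul_sum, hS0, mul_zero]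
    exact ⟨0, by simp [intbN, hS0, hS1]⟩
  · have hcen : ∀ (x : Q) (b : F), η (x * t 0 b) = ψ b * η x :=
      fun x b => central_eq_of_mS_ne_zero ψ (intbZ t σ hmul) hcenter hη h0 x b
    have hS0 : ∑ b, η (t 0 b) * ψ b = (Fintype.card F : ℂ) * η 1 := by
      have : ∀ b, η (t 0 b) * ψ b = η 1 := by
        intro b
        have := hcen 1 b
        rw [one_mul] at this
        rw [this]
        linear_combination η 1 * intb_psi_sq ψ b
      rw [Finset.sum_congr rfl (fun b _ => this b)]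
      simp
    have hS1 : ∑ b, η (t 1 b) * ψ b = (Fintype.card F : ℂ) * η (t 1 0) := by
      have : ∀ b, η (t 1 b) * ψ b = η (t 1 0) := by
        intro b
        have e : t 1 b = t 1 0 * t 0 b := by rw [hmul]; simp
        rw [e, hcen]
        linear_combination η (t 1 0) * intb_psi_sq ψ b
      rw [Finset.sum_congr rfl (fun b _ => this b)]
      simp
    have hN : intbN t ψ ε η = (η 1 + ε * η (t 1 0)) / 2 := by
      unfold intbN
      rw [hS0, hS1]
      field_simp
    have h11 : (1 : F) + 1 = 0 := CharTwo.add_self_eq_zero 1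
    have y2 : t 1 0 ^ 2 = t 0 1 := by
      rw [pow_two, hmul, h11]; simp
    have y3 : t 1 0 ^ 3 = t 1 0 * t 0 1 := by
      rw [pow_succ', y2]
    have y4 : t 1 0 ^ 4 = 1 := by
      have : t 1 0 ^ 4 = t 1 0 ^ 2 * t 1 0 ^ 2 := by rw [← pow_add]
      rw [this, y2, hmul]
      simp [h11, h00]
    have e2 : η (t 1 0 ^ 2) = - η 1 := by
      have := hcen 1 1
      rw [one_mul, hψ1] at this
      rw [y2, this]; ring
    have e3 : η (t 1 0 ^ 3) = - η (t 1 0) := by
      rw [y3, hcen, hψ1]; ring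
    obtain ⟨k₁, hk₁⟩ := intb_eig hch (t 1 0) y4 e2 e3 hε
    obtain ⟨k₂, hk₂⟩ := intb_eig hch (t 1 0) y4 e2 e3 (ε := -ε) (by rw [neg_sq, hε])
    have hd : η 1 = k₁ + k₂ := by rw [← hk₁, ← hk₂]; ring
    have he : η (t 1 0) = - ε * (k₁ - k₂) := by
      rw [← hk₁, ← hk₂]
      have : ε * ε = -1 := by rw [← pow_two, hε]
      linear_combination (η (t 1 0)) * this
    -- the norm
    have hprim : ψ.IsPrimitive := AddChar.IsPrimitive.of_ne_one (by
      intro h
      have := hψ1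
      rw [h, AddChar.one_apply] at this
      norm_num at this)
    have hvan : ∀ a : F, a ≠ 0 → a ≠ 1 → η (t a 0) = 0 := by
      intro a ha0 ha1
      apply suz_vanish t σ hmul ψ hcl hcen 0
      intro hall
      apply ha1
      apply suz_radical_unique σ hσ hprim ha0 one_ne_zero hall
      intro c
      rw [mul_one, map_one, one_mul, add_comm]
      exact hψσ c
    have hnorm := Cfsg.Agent.Lib.Helper20.classInner_irr_self hη
    unfold classInner at hnorm
    have hcard : Nat.card Q = Fintype.card F * Fintype.card F := by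
      rw [← Nat.card_congr (Equiv.ofBijective _ ht), Nat.card_prod, Nat.card_eq_fintype_card]
    rw [hcard, ← Equiv.sum_comp (Equiv.ofBijective _ ht), Fintype.sum_prod_type] at hnorm
    have h1 : ∀ a b : F, η (t a b) * conj (η (t a b)) = η (t a 0) * conj (η (t a 0)) := by
      intro a b
      have e : t a b = t a 0 * t 0 b := by rw [hmul]; simp
      rw [e, hcen, map_mul, intb_psi_conj]
      linear_combination (η (t a 0) * conj (η (t a 0))) * intb_psi_sq ψ b
    have h2 : ∑ a : F, ∑ b : F, η ((Equiv.ofBijective _ ht) (a, b)) * conj (η ((Equiv.ofBijective _ ht) (a, b))) =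
        (Fintype.card F : ℂ) * (η 1 * conj (η 1) + η (t 1 0) * conj (η (t 1 0))) := by
      have h3 : ∀ a : F, ∑ b : F, η ((Equiv.ofBijective _ ht) (a, b)) * conj (η ((Equiv.ofBijective _ ht) (a, b)))
          = (Fintype.card F : ℂ) * (η (t a 0) * conj (η (t a 0))) := by
        intro a
        have : ∀ b : F, η ((Equiv.ofBijective _ ht) (a, b)) * conj (η ((Equiv.ofBijective _ ht) (a, b))) =
            η (t a 0) * conj (η (t a 0)) := fun b => h1 a b
        rw [Finset.sum_congr rfl (fun b _ => this b)]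
        simp
      rw [Finset.sum_congr rfl (fun a _ => h3 a), ← Finset.mul_sum]
      congr 1
      have : ∑ a : F, η (t a 0) * conj (η (t a 0)) = ∑ a ∈ ({0, 1} : Finset F), η (t a 0) * conj (η (t a 0)) := by
        symm
        apply Finset.sum_subset (Finset.subset_univ _)
        intro a _ ha
        simp only [Finset.mem_insert, Finset.mem_singleton, not_or] at ha
        rw [hvan a ha.1 ha.2, zero_mul]
      rw [this, Finset.sum_pair zero_ne_one, h00]
    rw [h2] at hnorm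
    have h4 : η 1 * conj (η 1) + η (t 1 0) * conj (η (t 1 0)) = (Fintype.card F : ℂ) := by
      push_cast at hnorm
      field_simp at hnorm
      linear_combination hnorm
    rw [hd, he] at h4
    simp only [map_add, map_mul, map_neg, map_sub, Complex.conj_natCast] at h4
    have hFc : (Fintype.card F : ℂ) = 2 * 4 ^ m := by
      rw [hF]
      push_cast
      rw [pow_succ, pow_mul]
      norm_num
      ring
    have h5 : ((k₁ : ℂ)) ^ 2 + (k₂ : ℂ) ^ 2 = 4 ^ m := by
      rw [hFc] at h4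
      linear_combination (1 / 2 : ℂ) * h4 - (1 / 2 : ℂ) * ((k₁ : ℂ) - k₂) ^ 2 * hε'
    have h6 : k₁ ^ 2 + k₂ ^ 2 = 4 ^ m := by exact_mod_cast h5
    obtain ⟨⟨c, hc⟩, -⟩ := intb_descent m k₁ k₂ h6
    refine ⟨c, ?_⟩
    rw [hN, hk₁, hc]
    push_cast
    ring

theorem intb_char [Fintype Q] (t : F → F → Q) (ht : Function.Bijective (fun p : F × F => t p.1 p.2))
    (σ : F →+* F) (hσ : ∀ x, σ (σ x) = x ^ 2)
    (hmul : ∀ a b c d, t a b * t c d = t (a + c) (b + d + σ a * c)) (ψ : AddChar F ℂ) (hψ1 : ψ 1 = -1)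
    (hψσ : ∀ c, ψ (c + σ c) = 1) {m : ℕ} (hF : Fintype.card F = 2 ^ (2 * m + 1))
    {ε : ℂ} (hε : ε ^ 2 = -1) (hε' : ε * conj ε = 1) {φ : Q → ℂ} (hφ : IsCharacter Q φ) :
    ∃ k : ℕ, intbN t ψ ε φ = 2 ^ m * k := by
  obtain ⟨l, rfl⟩ := Cfsg.Agent.Lib.Helper20.exists_multiset_of_isCharacter hφ
  clear hφ
  induction l using Multiset.induction_on with
  | empty => exact ⟨0, by simp [intbN_zero]⟩
  | cons a l ih =>
    obtain ⟨k₁, hk₁⟩ := ih
    obtain ⟨k₂, hk₂⟩ := intb_irr t ht σ hσ hmul ψ hψ1 hψσ hF hε hε' a.2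
    refine ⟨k₂ + k₁, ?_⟩
    rw [Multiset.map_cons, Multiset.sum_cons, intbN_add, hk₁, hk₂]
    push_cast
    ring

end abs

section conc

variable {F : Type*} [Field F] [Fintype F] [CharP F 2] {G : Type*} [Group G] {m : ℕ}

/-- the Sylow 2-subgroup `{t a b}`. -/
def intbQS (C : Cfg F G m) : Subgroup G where
  carrier := {x | ∃ a b, x = C.t a b}
  mul_mem' := by
    rintro _ _ ⟨a, b, rfl⟩ ⟨c, d, rfl⟩
    exact ⟨_, _, C.hmul a b c d⟩
  one_mem' := ⟨0, 0, (intb_t00 C.t C.σ C.hmul).symm⟩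
  inv_mem' := by
    rintro _ ⟨a, b, rfl⟩
    refine ⟨a, b + C.σ a * a, ?_⟩
    rw [inv_eq_iff_mul_eq_one, C.hmul, CharTwo.add_self_eq_zero]
    have : b + (b + C.σ a * a) + C.σ a * a = 0 := by
      have h1 := CharTwo.add_self_eq_zero b
      have h2 := CharTwo.add_self_eq_zero (C.σ a * a)
      linear_combination h1 + h2
    rw [this]
    exact intb_t00 C.t C.σ C.hmul

/-- the parametrisation of `intbQS`. -/
def intbT (C : Cfg F G m) (a b : F) : intbQS C := ⟨C.t a b, a, b, rfl⟩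

theorem intb_main [Finite G] (C : Cfg F G m) {χ : G → ℂ} (hχ : IsCharacter G χ) {ε : ℂ} (hε : ε ^ 2 = -1)
    (hε' : ε * conj ε = 1) :
    ∃ n : ℕ, (χ 1 - χ (C.t 0 1) + ε * (qC m / 2) * (χ (C.t 1 0) - χ (C.t 1 1))) / (2 * qC m * 2 ^ m) = n := by
  classical
  have _ : Fintype (intbQS C) := Fintype.ofFinite _
  have hcl := Cfsg.Agent.Lib.Helper20.isClassFunction_of_isCharacter hχ
  have hφ : IsCharacter (intbQS C) (χ ∘ (intbQS C).subtype) :=
    Cfsg.Agent.Lib.Helper20.isCharacter_comp_hom hχ _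
  have ht : Function.Bijective (fun p : F × F => intbT C p.1 p.2) := by
    constructor
    · rintro ⟨a, b⟩ ⟨c, d⟩ h
      have := C.hinj a b c d (congrArg Subtype.val h)
      exact Prod.ext this.1 this.2
    · rintro ⟨_, a, b, rfl⟩
      exact ⟨(a, b), rfl⟩
  obtain ⟨k, hk⟩ := intb_char (intbT C) ht C.σ C.hσ (fun a b c d => Subtype.ext (C.hmul a b c d)) C.ψ
    C.hψ1 C.hψσ C.hF hε hε' hφ
  refine ⟨k, ?_⟩
  have hq : (Fintype.card F : ℂ) = qC m := by
    rw [C.hF]; unfold qC; push_cast; rfl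
  have e : intbN (intbT C) C.ψ ε (χ ∘ (intbQS C).subtype) =
      (χ 1 - χ (C.t 0 1) + ε * ((qC m / 2) * (χ (C.t 1 0) - χ (C.t 1 1)))) / (2 * qC m) := by
    unfold intbN
    rw [hq, ← sum_zero_tw C hcl, ← sum_row_tw C hcl]
    rfl
  have h2 : (2 : ℂ) ^ m ≠ 0 := pow_ne_zero _ two_ne_zero
  have hq0 := qC_ne_zero m
  rw [e] at hk
  field_simp at hk ⊢
  linear_combination hk

end conc

variable {F : Type*} [Field F] [Fintype F] [CharP F 2] {G : Type*} [Group G] [Finite G] {m : ℕ}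

theorem bN_nat (C : Cfg F G m) {χ : G → ℂ} (hχ : IsCharacter G χ) : ∃ n : ℕ, bN C χ = n := by
  obtain ⟨n, hn⟩ := intb_main C hχ (ε := -Complex.I) (by simp) (by simp)
  refine ⟨n, ?_⟩
  rw [← hn]
  unfold bN
  ring

theorem cN_nat (C : Cfg F G m) {χ : G → ℂ} (hχ : IsCharacter G χ) : ∃ n : ℕ, cN C χ = n := by
  obtain ⟨n, hn⟩ := intb_main C hχ (ε := Complex.I) (by simp) (by simp)
  refine ⟨n, ?_⟩
  rw [← hn]
  unfold cN
  ring

end Cfsg.Agent.Lib.Helper44.SzDeg
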