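import Cfsg.Agent.Lib.Helper44.SzDeg.VAL

set_option autoImplicit false

namespace Cfsg.Agent.Lib.Helper44.SzDeg

open Cfsg
open scoped ComplexConjugate

variable {F : Type*} [Field F] [Fintype F] [CharP F 2] {G : Type*} [Group G] [Finite G] {m : ℕ}

omit [Finite G] in
theorem intla_inv (C : Cfg F G m) (a b : F) : (C.t a b)⁻¹ = C.t a (b + C.σ a * a) := by
  rw [inv_eq_iff_mul_eq_one, C.hmul, ← val_t00 C]
  congr 1
  · exact CharTwo.add_self_eq_zero a
  · have h1 := CharTwo.add_self_eq_zero b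
    have h2 := CharTwo.add_self_eq_zero (C.σ a * a)
    linear_combination h1 + h2

/-- the Sylow 2-subgroup `Q = {t a b}`. -/
def qsub (C : Cfg F G m) : Subgroup G where
  carrier := {x | ∃ a b, x = C.t a b}
  mul_mem' := by
    rintro _ _ ⟨a, b, rfl⟩ ⟨c, d, rfl⟩
    exact ⟨_, _, C.hmul a b c d⟩
  one_mem' := ⟨0, 0, (val_t00 C).symm⟩
  inv_mem' := by
    rintro _ ⟨a, b, rfl⟩
    exact ⟨_, _, intla_inv C a b⟩

omit [Finite G] in
theorem mem_qsub (C : Cfg F G m) (a b : F) : C.t a b ∈ qsub C := ⟨a, b, rfl⟩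

omit [Finite G] in
theorem qsub_cases (C : Cfg F G m) (x : qsub C) : ∃ a b, x = ⟨C.t a b, mem_qsub C a b⟩ := by
  obtain ⟨a, b, h⟩ := x.2
  exact ⟨a, b, Subtype.ext h⟩

/-- coordinates on `Q`. -/
noncomputable def qEquiv (C : Cfg F G m) : F × F ≃ qsub C :=
  Equiv.ofBijective (fun p => ⟨C.t p.1 p.2, mem_qsub C p.1 p.2⟩) (by
    constructor
    · rintro ⟨a, b⟩ ⟨c, d⟩ h
      have h1 : C.t a b = C.t c d := congrArg Subtype.val h
      obtain ⟨h2, h3⟩ := C.hinj _ _ _ _ h1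
      rw [h2, h3]
    · intro x
      obtain ⟨a, b, rfl⟩ := qsub_cases C x
      exact ⟨(a, b), rfl⟩)

omit [Finite G] in
theorem qEquiv_symm_t (C : Cfg F G m) (a b : F) (h : C.t a b ∈ qsub C) :
    (qEquiv C).symm ⟨C.t a b, h⟩ = (a, b) := by
  rw [Equiv.symm_apply_eq]; rfl

/-- the linear character `t a b ↦ ν a` of `Q`. -/
noncomputable def qHom (C : Cfg F G m) (ν : AddChar F ℂ) : qsub C →* ℂ where
  toFun x := ν ((qEquiv C).symm x).1
  map_one' := by
    have h : (1 : qsub C) = ⟨C.t 0 0, mem_qsub C 0 0⟩ := Subtype.ext (val_t00 C).symm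
    rw [h, qEquiv_symm_t]
    exact AddChar.map_zero_eq_one ν
  map_mul' := by
    intro x y
    obtain ⟨a, b, rfl⟩ := qsub_cases C x
    obtain ⟨c, d, rfl⟩ := qsub_cases C y
    have h : (⟨C.t a b, mem_qsub C a b⟩ * ⟨C.t c d, mem_qsub C c d⟩ : qsub C)
        = ⟨C.t (a + c) (b + d + C.σ a * c), mem_qsub C _ _⟩ := Subtype.ext (C.hmul a b c d)
    rw [h, qEquiv_symm_t, qEquiv_symm_t, qEquiv_symm_t]
    exact AddChar.map_add_eq_mul ν a c

theorem intla_nat (C : Cfg F G m) {χ : G → ℂ} (hχ : IsCharacter G χ) (ν : AddChar F ℂ) :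
    ∃ n : ℕ, (qC m ^ 2)⁻¹ * ∑ a : F, ∑ b : F, χ (C.t a b) * conj (ν a) = n := by
  classical
  have := Fintype.ofFinite (qsub C)
  have h1 : IsCharacter (qsub C) (fun x : qsub C => χ x) :=
    Cfsg.Agent.Lib.Helper20.isCharacter_restrict hχ (qsub C)
  have h2 : IsIrrCharacter (qsub C) (qHom C ν) := isIrrCharacter_monoidHom _
  obtain ⟨n, hn⟩ := Cfsg.Agent.Lib.Helper20.isCharacter_classInner_nat h1 h2
  refine ⟨n, ?_⟩
  rw [← hn]
  unfold classInner
  congr 1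
  · rw [← Nat.card_congr (qEquiv C), Nat.card_prod, Nat.card_eq_fintype_card, Nat.cast_mul,
      val_card C, pow_two]
  · rw [← Finset.sum_product']
    refine Fintype.sum_equiv (qEquiv C) _ _ ?_
    rintro ⟨a, b⟩
    show χ (C.t a b) * conj (ν a) = χ (C.t a b) * conj (ν ((qEquiv C).symm (qEquiv C (a, b))).1)
    rw [Equiv.symm_apply_apply]

omit [Finite G] in
theorem intla_sum (C : Cfg F G m) {χ : G → ℂ} (hχ : IsClassFunction G χ) (w : F → ℂ) :
    ∑ a : F, ∑ b : F, χ (C.t a b) * w a =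
      (χ 1 + (qC m - 1) * χ (C.t 0 1)) * w 0 +
        (qC m / 2) * (χ (C.t 1 0) + χ (C.t 1 1)) * (∑ a : F, w a - w 0) := by
  classical
  have h1 : ∀ a : F, ∑ b : F, χ (C.t a b) * w a =
      (qC m / 2) * (χ (C.t 1 0) + χ (C.t 1 1)) * w a +
      (if a = 0 then ((χ 1 + (qC m - 1) * χ (C.t 0 1)) -
        (qC m / 2) * (χ (C.t 1 0) + χ (C.t 1 1))) * w a else 0) := by
    intro a
    rw [← Finset.sum_mul]
    split_ifs with h
    · rw [h, sum_zero C hχ]; ring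
    · rw [sum_row C hχ h, add_zero]
  rw [Finset.sum_congr rfl (fun a _ => h1 a), Finset.sum_add_distrib, ← Finset.mul_sum,
    Finset.sum_ite_eq' Finset.univ (0 : F), if_pos (Finset.mem_univ _)]
  ring

theorem lN_nat (C : Cfg F G m) {χ : G → ℂ} (hχ : IsCharacter G χ) : ∃ n : ℕ, lN C χ = n := by
  obtain ⟨n, hn⟩ := intla_nat C hχ 1
  refine ⟨n, ?_⟩
  rw [← hn, intla_sum C (Cfsg.Agent.Lib.Helper20.isClassFunction_of_isCharacter hχ)]
  simp only [AddChar.one_apply, map_one, Finset.sum_const, Finset.card_univ, nsmul_eq_mul,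
    val_card C, mul_one]
  unfold lN
  have h := qC_ne_zero m
  field_simp

theorem aN_nat (C : Cfg F G m) {χ : G → ℂ} (hχ : IsCharacter G χ) : ∃ n : ℕ, aN C χ = n := by
  obtain ⟨n, hn⟩ := intla_nat C hχ C.ψ
  refine ⟨n, ?_⟩
  rw [← hn, intla_sum C (Cfsg.Agent.Lib.Helper20.isClassFunction_of_isCharacter hχ)]
  rw [← map_sum, sum_psi, AddChar.map_zero_eq_one, map_one, map_zero]
  unfold aN
  have h := qC_ne_zero m
  field_simp
  ring

end Cfsg.Agent.Lib.Helper44.SzDeg
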