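import Cfsg.Agent.Lib.Helper44.SzDeg.IND
import Cfsg.Agent.Lib.Helper44.SzDeg.INTLA
import Cfsg.Agent.Lib.Helper44.SzDeg.INTB
import Cfsg.Agent.Lib.Helper44.SzDeg.ARITH
import Cfsg.Agent.Lib.Helper77.GlaubCore

set_option autoImplicit false
set_option linter.unusedSectionVars false

namespace Cfsg.Agent.Lib.Helper44.SzDeg

open Cfsg
open scoped ComplexConjugate

variable {F : Type*} [Field F] [Fintype F] [CharP F 2] {G : Type*} [Group G] [Fintype G] {m : ℕ}

theorem nonc_exists {R : G → ℂ} (hR : IsCharacter G R) (hne : R ≠ 0) :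
    ∃ χ' : IrrCharacter G, classInner R χ' ≠ 0 := by
  by_contra hcon
  push Not at hcon
  apply hne
  have h := Helper20.eq_sum_classInner_smul (Helper82.isChar_isClassFunction hR)
  simp only [hcon, zero_smul, Finset.sum_const_zero] at h
  exact h

theorem nonc_zero (C : Cfg F G m) {R : G → ℂ} (hR : IsCharacter G R) (hl : lN C R = 0)
    (hcons : ∀ χ' : IrrCharacter G, classInner R χ' ≠ 0 → lN C χ' ≠ 0) : R = 0 := by
  by_contra hne
  obtain ⟨χ', hχ'⟩ := nonc_exists hR hne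
  have h1 := hcons χ' hχ'
  obtain ⟨φ, hφ, rfl⟩ := exists_add_of_classInner_ne_zero hR χ'.2 hχ'
  rw [lN_add] at hl
  obtain ⟨a, ha⟩ := lN_nat C (Helper82.isIrr_isChar χ'.2)
  obtain ⟨b, hb⟩ := lN_nat C hφ
  rw [ha] at h1 hl
  rw [hb] at hl
  have h2 : a + b = 0 := by exact_mod_cast hl
  apply h1
  have h3 : a = 0 := by omega
  simp [h3]

theorem nonc_cons {χ φ : G → ℂ} (hχ : IsCharacter G χ) (hφ : IsCharacter G φ)
    (χ' : IrrCharacter G) (h : classInner φ χ' ≠ 0) : classInner (χ + φ) χ' ≠ 0 := by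
  rw [Helper20.classInner_add_left]
  obtain ⟨a, ha⟩ := Helper20.isCharacter_classInner_nat hχ χ'.2
  obtain ⟨b, hb⟩ := Helper20.isCharacter_classInner_nat hφ χ'.2
  rw [ha, hb]
  rw [hb] at h
  have h1 : b ≠ 0 := by exact_mod_cast h
  have h2 : a + b ≠ 0 := by omega
  exact_mod_cast h2

theorem nonc_deg (C : Cfg F G m) (ψ : IrrCharacter G) (hl : lN C ψ = 1) (ha : aN C ψ = 0)
    (b c : ℕ) (hb : bN C ψ = b) (hc : cN C ψ = c) (hb' : b ≤ 2 ^ m) (hc' : c ≤ 2 ^ m) :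
    b = 0 ∧ c = 0 := by
  obtain ⟨d, hd1, hd2, -⟩ := Helper77.irr_degree_dvd ψ.2
  have h1 := degree_eq C (ψ : G → ℂ)
  rw [hd1, hl, ha, hb, hc] at h1
  unfold qC at h1
  have h2 : (d : ℤ) = 1 + ((2 : ℤ) ^ (2 * m + 1) - 1) * (2 ^ m * ((b : ℤ) + c)) := by
    have h3 : (d : ℂ) = ((1 + ((2 : ℤ) ^ (2 * m + 1) - 1) * (2 ^ m * ((b : ℤ) + c)) : ℤ) : ℂ) := by
      rw [h1]
      push_cast
      ring
    exact_mod_cast h3
  have h4 : (d : ℤ) ∣ ((2 : ℤ) ^ (2 * m + 1)) ^ 2 * (((2 : ℤ) ^ (2 * m + 1)) ^ 2 + 1) *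
      ((2 : ℤ) ^ (2 * m + 1) - 1) := by
    have h5 := Int.natCast_dvd_natCast.2 hd2
    rw [C.hcard] at h5
    have h6 : 1 ≤ 2 ^ (2 * m + 1) := Nat.one_le_two_pow
    push_cast [Nat.cast_sub h6] at h5
    exact h5
  rw [h2] at h4
  have h7 := arith3 m C.hm _ rfl ((b : ℤ) + c) (by positivity) (by
    have h8 : (b : ℤ) ≤ 2 ^ m := by exact_mod_cast hb'
    have h9 : (c : ℤ) ≤ 2 ^ m := by exact_mod_cast hc'
    rw [pow_succ]
    linarith) h4
  have h8 : b + c = 0 := by exact_mod_cast h7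
  omega

theorem noncusp (C : Cfg F G m) (χ : IrrCharacter G) (h : lN C χ ≠ 0) :
    (lN C χ = 1 ∧ aN C χ = 0 ∧ bN C χ = 0 ∧ cN C χ = 0) ∨
    (lN C χ = 1 ∧ aN C χ = 1 ∧ bN C χ = 2 ^ m ∧ cN C χ = 2 ^ m) ∨
    (lN C χ = 2 ∧ aN C χ = 1 ∧ bN C χ = 2 ^ m ∧ cN C χ = 2 ^ m) := by
  obtain ⟨R, hR, hRχ, hR1, hR2, hR3, hR4, hcons⟩ := exists_ind C χ h
  have hq := qC_ne_zero m
  have h2m : (2 : ℂ) ^ m ≠ 0 := pow_ne_zero _ two_ne_zero
  have lR : lN C R = 2 := by
    unfold lN; rw [hR1, hR2, hR3, hR4]; field_simp; ring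
  have aR : aN C R = 1 := by
    unfold aN; rw [hR1, hR2, hR3, hR4]; field_simp; ring
  have bR : bN C R = 2 ^ m := by
    unfold bN; rw [hR1, hR2, hR3, hR4, qC_eq]; field_simp; ring
  have cR : cN C R = 2 ^ m := by
    unfold cN; rw [hR1, hR2, hR3, hR4, qC_eq]; field_simp; ring
  have z1 : lN C (0 : G → ℂ) = 0 := by unfold lN; simp
  have z2 : aN C (0 : G → ℂ) = 0 := by unfold aN; simp
  have z3 : bN C (0 : G → ℂ) = 0 := by unfold bN; simp
  have z4 : cN C (0 : G → ℂ) = 0 := by unfold cN; simp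
  have hχc := Helper82.isIrr_isChar χ.2
  obtain ⟨R', hR', rfl⟩ := exists_add_of_classInner_ne_zero hR χ.2 hRχ
  rw [lN_add] at lR
  rw [aN_add] at aR
  rw [bN_add] at bR
  rw [cN_add] at cR
  have hcons' : ∀ χ' : IrrCharacter G, classInner R' χ' ≠ 0 → lN C χ' ≠ 0 := fun χ' h' =>
    hcons χ' (nonc_cons hχc hR' χ' h')
  obtain ⟨l, hl⟩ := lN_nat C hχc
  obtain ⟨a, ha⟩ := aN_nat C hχc
  obtain ⟨b, hb⟩ := bN_nat C hχc
  obtain ⟨c, hc⟩ := cN_nat C hχc
  obtain ⟨l', hl'⟩ := lN_nat C hR'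
  obtain ⟨a', ha'⟩ := aN_nat C hR'
  obtain ⟨b', hb'⟩ := bN_nat C hR'
  obtain ⟨c', hc'⟩ := cN_nat C hR'
  have el : l + l' = 2 := by rw [hl, hl'] at lR; exact_mod_cast lR
  have ea : a + a' = 1 := by rw [ha, ha'] at aR; exact_mod_cast aR
  have eb : b + b' = 2 ^ m := by rw [hb, hb'] at bR; exact_mod_cast bR
  have ec : c + c' = 2 ^ m := by rw [hc, hc'] at cR; exact_mod_cast cR
  have l0 : l ≠ 0 := by
    intro h0
    apply h
    rw [hl, h0]; simp
  by_cases hl2 : l = 2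
  · have h0 : R' = 0 := nonc_zero C hR' (by
      rw [hl']
      have : l' = 0 := by omega
      simp [this]) hcons'
    subst h0
    rw [z2] at aR
    rw [z3] at bR
    rw [z4] at cR
    right; right
    refine ⟨by rw [hl, hl2]; simp, by simpa using aR, by simpa using bR, by simpa using cR⟩
  · have hl1 : l = 1 := by omega
    have hl1' : l' = 1 := by omega
    have hne : R' ≠ 0 := by
      intro h0
      rw [h0, z1] at hl'
      have : l' = 0 := by exact_mod_cast hl'.symm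
      omega
    obtain ⟨χ', hχ'⟩ := nonc_exists hR' hne
    have hχ'l := hcons' χ' hχ'
    have hχ'c := Helper82.isIrr_isChar χ'.2
    obtain ⟨R'', hR'', rfl⟩ := exists_add_of_classInner_ne_zero hR' χ'.2 hχ'
    obtain ⟨l1, hl1a⟩ := lN_nat C hχ'c
    obtain ⟨l2, hl2a⟩ := lN_nat C hR''
    rw [lN_add, hl1a, hl2a] at hl'
    have e3 : l1 + l2 = l' := by exact_mod_cast hl'
    have l10 : l1 ≠ 0 := by
      intro h0
      apply hχ'l
      rw [hl1a, h0]; simp
    have h0 : R'' = 0 := nonc_zero C hR'' (by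
      rw [hl2a]
      have : l2 = 0 := by omega
      simp [this]) (fun χ'' h'' => hcons' χ'' (nonc_cons hχ'c hR'' χ'' h''))
    subst h0
    rw [add_zero] at ha' hb' hc'
    by_cases ha0 : a = 0
    · obtain ⟨h3, h4⟩ := nonc_deg C χ (by rw [hl, hl1]; simp) (by rw [ha, ha0]; simp) b c hb hc
        (by omega) (by omega)
      left
      refine ⟨by rw [hl, hl1]; simp, by rw [ha, ha0]; simp, by rw [hb, h3]; simp,
        by rw [hc, h4]; simp⟩
    · have ha1 : a = 1 := by omega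
      have ha0' : a' = 0 := by omega
      obtain ⟨h3, h4⟩ := nonc_deg C χ' (by
        rw [hl1a]
        have : l1 = 1 := by omega
        simp [this]) (by rw [ha', ha0']; simp) b' c' hb' hc' (by omega) (by omega)
      right; left
      refine ⟨by rw [hl, hl1]; simp, by rw [ha, ha1]; simp, ?_, ?_⟩
      · rw [hb]
        have : b = 2 ^ m := by omega
        rw [this]; push_cast; rfl
      · rw [hc]
        have : c = 2 ^ m := by omega
        rw [this]; push_cast; rfl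

end Cfsg.Agent.Lib.Helper44.SzDeg
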