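import Cfsg.Agent.Lib.Helper44.SzDeg.Defs
import Cfsg.Agent.Lib.Helper19.LinChar
import Cfsg.Agent.Lib.Helper83.Basic

set_option autoImplicit false

namespace Cfsg.Agent.Lib.Helper44.SzDeg

open Cfsg
open scoped ComplexConjugate

variable {F : Type*} [Field F] [Fintype F] {G : Type*} [Group G] [Finite G] {m : ℕ}

theorem triv_const (C : Cfg F G m) (χ : IrrCharacter G) (h : (χ : G → ℂ) 1 = 1) (g : G) :
    (χ : G → ℂ) g = 1 := by
  obtain ⟨f, hf⟩ := Cfsg.Agent.Lib.Helper19.exists_hom_of_linear (χ : G → ℂ)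
    ⟨Cfsg.Agent.Lib.Helper20.isCharacter_of_isIrrCharacter χ.2, h⟩
  have hk : g ∈ f.ker := Abelianization.commutator_subset_ker f (by rw [C.hperf]; trivial)
  rw [hf, Cfsg.Agent.Lib.Helper19.homFun_apply, MonoidHom.mem_ker.1 hk, Units.val_one]

/-- `G` is perfect, so the only irreducible character of degree one is the trivial one. -/
theorem eq_of_degree_one (C : Cfg F G m) (χ χ' : IrrCharacter G) (h : (χ : G → ℂ) 1 = 1)
    (h' : (χ' : G → ℂ) 1 = 1) : χ = χ' := by
  apply Subtype.ext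
  funext g
  rw [triv_const C χ h g, triv_const C χ' h' g]

/-- the trivial character. -/
theorem exists_triv (C : Cfg F G m) : ∃ χ : IrrCharacter G, ∀ g, (χ : G → ℂ) g = 1 :=
  ⟨⟨fun _ => 1, Cfsg.Agent.Lib.Helper83.isIrr_trivial⟩, fun _ => rfl⟩

end Cfsg.Agent.Lib.Helper44.SzDeg
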