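import Cfsg.Agent.Lib.Helper44.SzDeg.CORE
import Cfsg.Agent.Lib.Helper44.SzDeg.NONC
import Cfsg.Agent.Lib.Helper44.SzDeg.FS
import Cfsg.Agent.Lib.Helper44.SzDeg.TRIV
import Cfsg.Prelude.Def_DegreeGraph

set_option autoImplicit false

namespace Cfsg.Agent.Lib.Helper44.SzDeg

open Cfsg
open scoped ComplexConjugate

variable {F : Type*} [Field F] [Fintype F] [CharP F 2] {G : Type*} [Group G] [Fintype G] {m : ℕ}

theorem qC_cast (m : ℕ) : qC m = (((2 : ℤ) ^ (2 * m + 1) : ℤ) : ℂ) := by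
  unfold qC; push_cast; rfl

theorem charDegree_eq {χ : G → ℂ} {d : ℕ} (h : χ 1 = d) : charDegree χ = d := by
  unfold charDegree
  rw [h]
  simp

theorem degrees_int (C : Cfg F G m) :
    ∃ D : IrrCharacter G → ℤ, (∀ χ : IrrCharacter G, ((D χ : ℤ) : ℂ) = (χ : G → ℂ) 1) ∧
    (∀ χ, D χ = 1 ∨ D χ = ((2 : ℤ) ^ (2 * m + 1)) ^ 2 ∨ D χ = ((2 : ℤ) ^ (2 * m + 1)) ^ 2 + 1 ∨
      D χ = 2 ^ m * ((2 : ℤ) ^ (2 * m + 1) - 1) ∨
      D χ = ((2 : ℤ) ^ (2 * m + 1) - 1) * ((2 : ℤ) ^ (2 * m + 1) + 2 * 2 ^ m + 1) ∨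
      D χ = ((2 : ℤ) ^ (2 * m + 1) - 1) * ((2 : ℤ) ^ (2 * m + 1) - 2 * 2 ^ m + 1)) ∧
    (∃ χ, D χ = ((2 : ℤ) ^ (2 * m + 1)) ^ 2) ∧ (∃ χ, D χ = ((2 : ℤ) ^ (2 * m + 1)) ^ 2 + 1) ∧
    (∃ χ, D χ = 2 ^ m * ((2 : ℤ) ^ (2 * m + 1) - 1)) ∧
    (∃ χ, D χ = ((2 : ℤ) ^ (2 * m + 1) - 1) * ((2 : ℤ) ^ (2 * m + 1) + 2 * 2 ^ m + 1)) ∧
    (∃ χ, D χ = ((2 : ℤ) ^ (2 * m + 1) - 1) * ((2 : ℤ) ^ (2 * m + 1) - 2 * 2 ^ m + 1)) := by
  classical
  have hch : ∀ χ : IrrCharacter G, IsCharacter G (χ : G → ℂ) :=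
    fun χ => Cfsg.Agent.Lib.Helper20.isCharacter_of_isIrrCharacter χ.2
  choose l hl using fun χ : IrrCharacter G => lN_nat C (hch χ)
  choose a ha using fun χ : IrrCharacter G => aN_nat C (hch χ)
  choose b hb using fun χ : IrrCharacter G => bN_nat C (hch χ)
  choose c hc using fun χ : IrrCharacter G => cN_nat C (hch χ)
  obtain ⟨q, hq⟩ : ∃ q : ℤ, q = (2 : ℤ) ^ (2 * m + 1) := ⟨_, rfl⟩
  obtain ⟨x, hx⟩ : ∃ x : ℤ, x = (2 : ℤ) ^ m := ⟨_, rfl⟩
  have hqC : qC m = (q : ℂ) := by rw [hq]; exact qC_cast m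
  have hxC : ((2 : ℂ) ^ m) = (x : ℂ) := by rw [hx]; push_cast; rfl
  have hqx : q = 2 * x ^ 2 := by
    rw [hq, hx, pow_succ, pow_mul, mul_comm, ← pow_mul, ← pow_mul, mul_comm m 2]
  have hx2 : 2 ≤ x := by
    rw [hx]
    calc (2 : ℤ) = 2 ^ 1 := by norm_num
      _ ≤ 2 ^ m := pow_le_pow_right₀ (by norm_num) C.hm
  rw [← hq, ← hx]
  have hdeg : ∀ χ : IrrCharacter G, (χ : G → ℂ) 1 =
      (((l χ : ℤ) + (q - 1) * ((a χ : ℤ) + x * ((b χ : ℤ) + (c χ : ℤ))) : ℤ) : ℂ) := by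
    intro χ
    rw [degree_eq C χ, hl, ha, hb, hc, hqC, hxC]
    push_cast
    ring
  have hcardZ : ((Nat.card G : ℕ) : ℤ) = q ^ 2 * (q ^ 2 + 1) * (q - 1) := by
    rw [C.hcard, hq]
    have : (1 : ℕ) ≤ 2 ^ (2 * m + 1) := Nat.one_le_two_pow
    push_cast [Nat.cast_sub this]
    ring
  obtain ⟨χ0, hχ0⟩ := exists_triv C
  have key := core_aux (ι := IrrCharacter G) x q (q ^ 2 * (q ^ 2 + 1) * (q - 1)) hx2 hqx
    (arith1 m C.hm q hq) (by rw [hx]; exact arith2p m C.hm q hq) (by rw [hx]; exact arith2m m C.hm q hq)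
    (fun χ => (l χ : ℤ)) (fun χ => (a χ : ℤ)) (fun χ => (b χ : ℤ)) (fun χ => (c χ : ℤ))
    ?_ (fun χ => Int.natCast_nonneg _) (fun χ => Int.natCast_nonneg _) ?_ ?_ ?_ χ0 ?_ ?_
    ?_ ?_ ?_ ?_ ?_ ?_ ?_ ?_
  · exact ⟨fun χ => (l χ : ℤ) + (q - 1) * ((a χ : ℤ) + x * ((b χ : ℤ) + (c χ : ℤ))),
      fun χ => (hdeg χ).symm, key⟩
  · intro χ
    rcases aN_le_one C χ with h | h
    · left
      rw [ha] at h
      exact_mod_cast h
    · right
      rw [ha] at h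
      exact_mod_cast h
  · intro χ h
    have h' : lN C χ ≠ 0 := by
      rw [hl]
      exact_mod_cast h
    rcases noncusp C χ h' with ⟨h1, h2, h3, h4⟩ | ⟨h1, h2, h3, h4⟩ | ⟨h1, h2, h3, h4⟩
    · left
      rw [hl] at h1; rw [ha] at h2; rw [hb] at h3; rw [hc] at h4
      exact ⟨by exact_mod_cast h1, by exact_mod_cast h2, by exact_mod_cast h3, by exact_mod_cast h4⟩
    · right; left
      rw [hl] at h1; rw [ha] at h2; rw [hb, hxC] at h3; rw [hc, hxC] at h4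
      exact ⟨by exact_mod_cast h1, by exact_mod_cast h2, by exact_mod_cast h3, by exact_mod_cast h4⟩
    · right; right
      rw [hl] at h1; rw [ha] at h2; rw [hb, hxC] at h3; rw [hc, hxC] at h4
      exact ⟨by exact_mod_cast h1, by exact_mod_cast h2, by exact_mod_cast h3, by exact_mod_cast h4⟩
  · intro χ
    obtain ⟨d, hd1, hd2, hd3⟩ := Cfsg.Agent.Lib.Helper77.irr_degree_dvd χ.2
    have e : ((d : ℤ)) = (l χ : ℤ) + (q - 1) * ((a χ : ℤ) + x * ((b χ : ℤ) + (c χ : ℤ))) := by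
      have := hdeg χ
      rw [hd1] at this
      exact_mod_cast this
    rw [← e, ← hcardZ]
    exact_mod_cast hd2
  · intro χ
    obtain ⟨d, hd1, hd2, hd3⟩ := Cfsg.Agent.Lib.Helper77.irr_degree_dvd χ.2
    have e : ((d : ℤ)) = (l χ : ℤ) + (q - 1) * ((a χ : ℤ) + x * ((b χ : ℤ) + (c χ : ℤ))) := by
      have := hdeg χ
      rw [hd1] at this
      exact_mod_cast this
    rw [← e]
    exact_mod_cast hd3
  · have hq0 := qC_ne_zero m
    have hx0 : (2 : ℂ) ^ m ≠ 0 := pow_ne_zero _ two_ne_zero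
    have e1 : lN C χ0 = 1 := by
      unfold lN
      rw [hχ0, hχ0, hχ0, hχ0]
      field_simp
      ring
    have e2 : aN C χ0 = 0 := by
      unfold aN
      rw [hχ0, hχ0, hχ0, hχ0]
      field_simp
      ring
    have e3 : bN C χ0 = 0 := by
      unfold bN
      rw [hχ0, hχ0, hχ0, hχ0]
      simp
    have e4 : cN C χ0 = 0 := by
      unfold cN
      rw [hχ0, hχ0, hχ0, hχ0]
      simp
    rw [hl] at e1; rw [ha] at e2; rw [hb] at e3; rw [hc] at e4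
    exact ⟨by exact_mod_cast e1, by exact_mod_cast e2, by exact_mod_cast e3, by exact_mod_cast e4⟩
  · intro χ h
    apply eq_of_degree_one C χ χ0 _ (hχ0 1)
    rw [hdeg χ, h]
    simp
  · have := gram_ll C
    simp only [hl, Complex.conj_natCast, hqC] at this
    exact_mod_cast this
  · have := gram_la C
    simp only [hl, ha, Complex.conj_natCast, hqC] at this
    exact_mod_cast this
  · have := gram_aa C
    simp only [ha, Complex.conj_natCast, hqC] at this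
    exact_mod_cast this
  · have := gram_ab C
    simp only [ha, hb, Complex.conj_natCast, hqC, hxC] at this
    exact_mod_cast this
  · have := gram_ac C
    simp only [ha, hc, Complex.conj_natCast, hqC, hxC] at this
    exact_mod_cast this
  · have := gram_bb C
    simp only [hb, Complex.conj_natCast, hqC] at this
    have h2 : (2 : ℂ) * ∑ χ : IrrCharacter G, (b χ : ℂ) * (b χ : ℂ) = 2 + (q : ℂ) * ((q : ℂ) - 1) := by
      rw [this]; ring
    exact_mod_cast h2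
  · have := gram_cc C
    simp only [hc, Complex.conj_natCast, hqC] at this
    have h2 : (2 : ℂ) * ∑ χ : IrrCharacter G, (c χ : ℂ) * (c χ : ℂ) = 2 + (q : ℂ) * ((q : ℂ) - 1) := by
      rw [this]; ring
    exact_mod_cast h2
  · have := gram_bc C
    simp only [hb, hc, Complex.conj_natCast, hqC] at this
    have h2 : (2 : ℂ) * ∑ χ : IrrCharacter G, (b χ : ℂ) * (c χ : ℂ) = (q : ℂ) * ((q : ℂ) - 1) := by
      rw [this]; ring
    exact_mod_cast h2

end Cfsg.Agent.Lib.Helper44.SzDeg
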