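import Cfsg.Agent.Lib.Helper44.SzDeg.Defs

set_option autoImplicit false

namespace Cfsg.Agent.Lib.Helper44.SzDeg

open Cfsg
open scoped ComplexConjugate

variable {F : Type*} [Field F] [Fintype F] [CharP F 2] {G : Type*} [Group G] {m : ℕ}

omit [Fintype F] [CharP F 2] in
theorem val_conj {χ : G → ℂ} (hχ : IsClassFunction G χ) {x y : G} (h : IsConj x y) : χ y = χ x := by
  obtain ⟨c, hc⟩ := isConj_iff.1 h
  rw [← hc]; exact hχ x c

omit [CharP F 2] in
theorem val0 (C : Cfg F G m) {χ : G → ℂ} (hχ : IsClassFunction G χ) {b : F} (hb : b ≠ 0) :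
    χ (C.t 0 b) = χ (C.t 0 1) := val_conj hχ (C.hconj0 b hb)

theorem psi_sq (C : Cfg F G m) (b : F) : C.ψ b = 1 ∨ C.ψ b = -1 := by
  rw [← mul_self_eq_one_iff, ← AddChar.map_add_eq_mul, CharTwo.add_self_eq_zero,
    AddChar.map_zero_eq_one]

omit [CharP F 2] in
theorem val_t00 (C : Cfg F G m) : C.t 0 0 = 1 := by
  have h := C.hmul 0 0 0 0
  simp only [add_zero, map_zero, mul_zero] at h
  exact mul_eq_left.1 h

omit [CharP F 2] in
theorem val_card (C : Cfg F G m) : (Fintype.card F : ℂ) = qC m := by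
  rw [C.hF]; unfold qC; push_cast; rfl

/-- the additive map `c ↦ c + σ c`. -/
def valF (C : Cfg F G m) : F →+ F := AddMonoidHom.id F + (C.σ : F →+ F)

omit [CharP F 2] in
theorem valF_apply (C : Cfg F G m) (c : F) : valF C c = c + C.σ c := rfl

/-- the kernel of `ψ`. -/
def valK (C : Cfg F G m) : AddSubgroup F where
  carrier := {b | C.ψ b = 1}
  add_mem' := by
    intro a b ha hb
    show C.ψ (a + b) = 1
    rw [AddChar.map_add_eq_mul, show C.ψ a = 1 from ha, show C.ψ b = 1 from hb, one_mul]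
  zero_mem' := AddChar.map_zero_eq_one _
  neg_mem' := by
    intro a ha
    show C.ψ (-a) = 1
    rw [AddChar.map_neg_eq_inv, show C.ψ a = 1 from ha, inv_one]

omit [CharP F 2] in
theorem mem_valK (C : Cfg F G m) (b : F) : b ∈ valK C ↔ C.ψ b = 1 := Iff.rfl

theorem valK_index (C : Cfg F G m) : (valK C).index = 2 := by
  rw [AddSubgroup.index_eq_two_iff]
  refine ⟨1, fun b => ?_⟩
  rw [mem_valK, mem_valK, AddChar.map_add_eq_mul, C.hψ1]
  have hne : (1 : ℂ) ≠ -1 := by norm_num
  rcases psi_sq C b with h | h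
  · rw [h]; right
    exact ⟨rfl, by norm_num⟩
  · rw [h]; left
    exact ⟨by norm_num, by norm_num⟩

theorem valF_ker_card (C : Cfg F G m) : Nat.card (valF C).ker ≤ 2 := by
  have hsub : ((valF C).ker : Set F) ⊆ {0, 1} := by
    intro c hc
    have h1 : c + C.σ c = 0 := hc
    have h2 : C.σ c = c := by
      have := CharTwo.add_self_eq_zero c
      exact (add_left_cancel (h1.trans this.symm))
    have h3 : c ^ 2 = c := by rw [← C.hσ, h2, h2]
    have h4 : c * (c - 1) = 0 := by linear_combination h3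
    rcases mul_eq_zero.1 h4 with h | h
    · left; exact h
    · right; exact sub_eq_zero.1 h
  have h1 : Nat.card (valF C).ker = ((valF C).ker : Set F).ncard := Nat.card_coe_set_eq _
  rw [h1]
  exact (Set.ncard_le_ncard hsub (Set.toFinite _)).trans (Set.ncard_pair (zero_ne_one)).le

theorem valF_range (C : Cfg F G m) : (valF C).range = valK C := by
  apply AddSubgroup.eq_of_le_of_card_ge
  · rintro _ ⟨c, rfl⟩
    exact C.hψσ c
  · have h1 := (valF C).ker.card_mul_index
    rw [AddSubgroup.index_ker] at h1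
    have h2 := (valK C).card_mul_index
    rw [valK_index] at h2
    have h3 := valF_ker_card C
    have h4 : Nat.card (valK C) * 2 ≤ 2 * Nat.card (valF C).range := by
      rw [h2, ← h1]
      exact Nat.mul_le_mul_right _ h3
    omega

theorem val_exists (C : Cfg F G m) {b : F} (hb : C.ψ b = 1) : ∃ c, b = c + C.σ c := by
  have : b ∈ (valF C).range := by rw [valF_range]; exact hb
  obtain ⟨c, hc⟩ := this
  exact ⟨c, hc.symm⟩

theorem val_conj1 (C : Cfg F G m) {χ : G → ℂ} (hχ : IsClassFunction G χ) (b c : F) :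
    χ (C.t 1 (b + (c + C.σ c))) = χ (C.t 1 b) := by
  have h : C.t c 0 * C.t 1 b * (C.t c 0)⁻¹ = C.t 1 (b + (c + C.σ c)) := by
    rw [mul_inv_eq_iff_eq_mul, C.hmul, C.hmul]
    have h2 := CharTwo.add_self_eq_zero c
    congr 1
    · rw [add_comm]
    · simp only [map_one, mul_one, one_mul, zero_add, add_zero]
      linear_combination -h2
  have h2 := hχ (C.t 1 b) (C.t c 0)
  rw [h] at h2
  exact h2

theorem val1 (C : Cfg F G m) {χ : G → ℂ} (hχ : IsClassFunction G χ) (b : F) :
    χ (C.t 1 b) = if C.ψ b = 1 then χ (C.t 1 0) else χ (C.t 1 1) := by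
  split_ifs with h
  · obtain ⟨c, hc⟩ := val_exists C h
    have := val_conj1 C hχ 0 c
    rw [zero_add, ← hc] at this
    exact this
  · have h1 : C.ψ b = -1 := (psi_sq C b).resolve_left h
    have h2 : C.ψ (b + 1) = 1 := by
      rw [AddChar.map_add_eq_mul, h1, C.hψ1]; norm_num
    obtain ⟨c, hc⟩ := val_exists C h2
    have := val_conj1 C hχ 1 c
    rw [← hc] at this
    have e : (1 : F) + (b + 1) = b := by
      have := CharTwo.add_self_eq_zero (1 : F)
      linear_combination this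
    rw [e] at this
    exact this

omit [CharP F 2] in
theorem sum_psi (C : Cfg F G m) : ∑ b : F, C.ψ b = 0 := by
  apply AddChar.sum_eq_zero_of_ne_one
  intro h
  have := C.hψ1
  rw [h] at this
  norm_num at this

theorem val_sum_ite (C : Cfg F G m) (u v : ℂ) :
    ∑ b : F, (if C.ψ b = 1 then u else v) = (qC m / 2) * (u + v) := by
  have h1 : ∀ b : F, (if C.ψ b = 1 then u else v) = (u + v) / 2 + C.ψ b * ((u - v) / 2) := by
    intro b
    rcases psi_sq C b with h | h
    · rw [if_pos h, h]; ring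
    · rw [if_neg (by rw [h]; norm_num), h]; ring
  simp only [h1]
  rw [Finset.sum_add_distrib, ← Finset.sum_mul, sum_psi, zero_mul, add_zero, Finset.sum_const,
    Finset.card_univ, nsmul_eq_mul, val_card C]
  ring

theorem sum_row (C : Cfg F G m) {χ : G → ℂ} (hχ : IsClassFunction G χ) {a : F} (ha : a ≠ 0) :
    ∑ b : F, χ (C.t a b) = (qC m / 2) * (χ (C.t 1 0) + χ (C.t 1 1)) := by
  have hne : a * C.σ a ≠ 0 := mul_ne_zero ha ((map_ne_zero C.σ).2 ha)
  have h1 : ∀ b : F, χ (C.t a b) = χ (C.t 1 (b / (a * C.σ a))) := fun b =>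
    (val_conj hχ (C.hconj1 a b ha)).symm
  simp only [h1]
  rw [← val_sum_ite C]
  have h2 : ∑ b : F, χ (C.t 1 (b / (a * C.σ a))) = ∑ b : F, χ (C.t 1 b) :=
    Fintype.sum_equiv (Equiv.divRight₀ (a * C.σ a) hne) _ _ (fun b => rfl)
  rw [h2]
  exact Finset.sum_congr rfl (fun b _ => val1 C hχ b)

theorem sum_row_tw (C : Cfg F G m) {χ : G → ℂ} (hχ : IsClassFunction G χ) :
    ∑ b : F, χ (C.t 1 b) * C.ψ b = (qC m / 2) * (χ (C.t 1 0) - χ (C.t 1 1)) := by
  rw [sub_eq_add_neg, ← val_sum_ite C]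
  refine Finset.sum_congr rfl (fun b _ => ?_)
  rw [val1 C hχ b]
  rcases psi_sq C b with h | h
  · rw [if_pos h, if_pos h, h, mul_one]
  · rw [if_neg (by rw [h]; norm_num), if_neg (by rw [h]; norm_num), h]; ring

open Classical in
omit [CharP F 2] in
theorem val_zero_eq (C : Cfg F G m) {χ : G → ℂ} (hχ : IsClassFunction G χ) (b : F) :
    χ (C.t 0 b) = χ (C.t 0 1) + (if b = 0 then χ 1 - χ (C.t 0 1) else 0) := by
  split_ifs with h
  · rw [h, val_t00]; ring
  · rw [val0 C hχ h, add_zero]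

omit [CharP F 2] in
theorem sum_zero_tw (C : Cfg F G m) {χ : G → ℂ} (hχ : IsClassFunction G χ) :
    ∑ b : F, χ (C.t 0 b) * C.ψ b = χ 1 - χ (C.t 0 1) := by
  classical
  have h1 : ∀ b : F, χ (C.t 0 b) * C.ψ b = χ (C.t 0 1) * C.ψ b +
      (if b = 0 then (χ 1 - χ (C.t 0 1)) * C.ψ b else 0) := by
    intro b
    rw [val_zero_eq C hχ b, add_mul, ite_mul, zero_mul]
  rw [Finset.sum_congr rfl (fun b _ => h1 b)]
  rw [Finset.sum_add_distrib, ← Finset.mul_sum, sum_psi, mul_zero, zero_add,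
    Finset.sum_ite_eq' Finset.univ (0 : F), if_pos (Finset.mem_univ _), AddChar.map_zero_eq_one,
    mul_one]

omit [CharP F 2] in
theorem sum_zero (C : Cfg F G m) {χ : G → ℂ} (hχ : IsClassFunction G χ) :
    ∑ b : F, χ (C.t 0 b) = χ 1 + (qC m - 1) * χ (C.t 0 1) := by
  classical
  rw [Finset.sum_congr rfl (fun b _ => val_zero_eq C hχ b)]
  rw [Finset.sum_add_distrib, Finset.sum_const, Finset.card_univ, nsmul_eq_mul, val_card C,
    Finset.sum_ite_eq' Finset.univ (0 : F), if_pos (Finset.mem_univ _)]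
  ring

end Cfsg.Agent.Lib.Helper44.SzDeg
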